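import Cfsg.Prelude.Def_Solvable
import Cfsg.Agent.CharInd.Frobenius

/-!
# Elementary facts on Frobenius complements and kernels
-/

namespace Cfsg.Agent.Recog

open scoped Pointwise

variable {L : Type*} [Group L]

theorem mem_conj_smul_iff (g x : L) (H : Subgroup L) :
    x ∈ MulAut.conj g • H ↔ g⁻¹ * x * g ∈ H := by
  rw [Subgroup.mem_pointwise_smul_iff_inv_smul_mem]
  simp [mul_assoc]

theorem frobeniusComplement_ti {H : Subgroup L} (hH : Cfsg.IsFrobeniusComplement H) :
    ∀ g : L, g ∉ H → ∀ x ∈ H, g * x * g⁻¹ ∈ H → x = 1 := by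
  intro g hg x hx hgx
  have h := hH.2.2 g hg
  have hmem : g * x * g⁻¹ ∈ H ⊓ (MulAut.conj g • H) := by
    refine ⟨hgx, (mem_conj_smul_iff g _ H).mpr ?_⟩
    simpa [mul_assoc] using hx
  rw [h, Subgroup.mem_bot] at hmem
  simpa using hmem

/-- The Frobenius kernel is a normal complement to the Frobenius complement. -/
theorem exists_kernel [Finite L] {H : Subgroup L} (hH : Cfsg.IsFrobeniusComplement H) :
    ∃ K : Subgroup L, K.Normal ∧ (K : Set L) = Cfsg.frobeniusKernel H ∧
      Subgroup.IsComplement' K H := by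
  obtain ⟨K, hKn, hK, hc⟩ := CharInd.frobenius_kernel H (frobeniusComplement_ti hH)
  refine ⟨K, hKn, Set.ext fun x => ?_, hc⟩
  simp only [SetLike.mem_coe, hK, Cfsg.frobeniusKernel, Set.mem_ofPred_eq, mem_conj_smul_iff]
  constructor
  · intro h
    by_cases hx : x = 1
    · exact Or.inl hx
    · refine Or.inr fun g hg => hx ?_
      simpa [mul_assoc] using congrArg (fun t => g * t * g⁻¹) (h g hg)
  · rintro (rfl | h) g hg
    · simp
    · exact absurd hg (h g)

theorem kernel_spec [Finite L] {H K : Subgroup L} (hH : Cfsg.IsFrobeniusComplement H)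
    (hK : (K : Set L) = Cfsg.frobeniusKernel H) : K.Normal ∧ Subgroup.IsComplement' K H := by
  obtain ⟨K', h1, h2, h3⟩ := exists_kernel hH
  obtain rfl : K = K' := SetLike.coe_injective (hK.trans h2.symm)
  exact ⟨h1, h3⟩

/-- A nontrivial element of a Frobenius complement centralises only itself-part: fixed point
freeness on the kernel. -/
theorem eq_one_of_commute {H K : Subgroup L} (hH : Cfsg.IsFrobeniusComplement H)
    (hK : (K : Set L) = Cfsg.frobeniusKernel H) {h k : L} (hh : h ∈ H) (h1 : h ≠ 1) (hk : k ∈ K)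
    (hc : h * k = k * h) : k = 1 := by
  by_contra hk1
  have hk' : k ∈ Cfsg.frobeniusKernel H := hK ▸ hk
  rcases hk' with hk' | hk'
  · exact hk1 hk'
  have hkH : k ∉ H := fun hmem => hk' 1 ((mem_conj_smul_iff 1 k H).mpr (by simpa using hmem))
  refine h1 (frobeniusComplement_ti hH k hkH h hh ?_)
  rwa [← hc, mul_inv_cancel_right]

/-- The order of the kernel is prime to the order of the complement. -/
theorem coprime_card_kernel [Finite L] {H K : Subgroup L} (hH : Cfsg.IsFrobeniusComplement H)
    (hK : (K : Set L) = Cfsg.frobeniusKernel H) : (Nat.card K).Coprime (Nat.card H) := by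
  have hKn := (kernel_spec hH hK).1
  refine Nat.coprime_of_dvd fun p hp hpK hpH => ?_
  have : Fact p.Prime := ⟨hp⟩
  obtain ⟨h, hh⟩ := exists_prime_orderOf_dvd_card' p hpH
  -- conjugation by an element of order `p` fixes some nontrivial element of the kernel
  let S := Subgroup.zpowers h
  have hS : IsPGroup p S := IsPGroup.of_card (n := 1) (by rw [Nat.card_zpowers, hh, pow_one])
  let act : MulAction S K :=
    MulAction.compHom K ((MulAut.conjNormal (H := K)).comp (H.subtype.comp S.subtype))
  obtain ⟨k, hk, hne⟩ := hS.exists_fixed_point_of_prime_dvd_card_of_fixed_point K hpK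
    (a := 1) (MulAction.mem_fixedPoints.mpr fun s =>
      map_one ((MulAut.conjNormal (H := K)) ((s : H) : L)))
  have hfix := congrArg Subtype.val
    (MulAction.mem_fixedPoints.mp hk ⟨h, Subgroup.mem_zpowers h⟩)
  have hfix' : (h : L) * k * (h : L)⁻¹ = k := hfix
  refine hne.symm (Subtype.ext ?_)
  refine eq_one_of_commute hH hK h.2 ?_ k.2 (mul_inv_eq_iff_eq_mul.mp hfix')
  intro hone
  have : h = 1 := Subtype.ext hone
  rw [this, orderOf_one] at hh
  exact hp.one_lt.ne hh

/-- The complement's conjugates and the kernel cover the group. -/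
theorem exists_conj_mem_of_notMem_kernel {H K : Subgroup L}
    (hK : (K : Set L) = Cfsg.frobeniusKernel H) {x : L} (hx : x ∉ K) :
    ∃ g : L, g⁻¹ * x * g ∈ H := by
  have : x ∉ Cfsg.frobeniusKernel H := hK ▸ hx
  simp only [Cfsg.frobeniusKernel, Set.mem_ofPred_eq, not_or, not_forall, not_not,
    mem_conj_smul_iff] at this
  exact this.2

end Cfsg.Agent.Recog
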