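import Cfsg.Agent.Lib.CoxeterSym

/-!
# Carmichael's presentation of the alternating groups
-/

set_option autoImplicit false

namespace Cfsg.Agent.Recog.Carmichael

open Cfsg.Agent.CoxeterSym
set_option linter.style.haveILetI false

/-- The relators. -/
abbrev rels (m : ℕ) : Set (FreeGroup (Fin m)) :=
  {g : FreeGroup (Fin m) | ∃ i : Fin m, i.val = 0 ∧ g = FreeGroup.of i ^ 3} ∪
       {g | ∃ i : Fin m, 1 ≤ i.val ∧ g = FreeGroup.of i ^ 2} ∪
       {g | ∃ i j : Fin m, j.val = i.val + 1 ∧ g = (FreeGroup.of i * FreeGroup.of j) ^ 3} ∪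
       {g | ∃ i j : Fin m, i.val + 1 < j.val ∧ g = (FreeGroup.of i * FreeGroup.of j) ^ 2}

section
variable {W : Type*} [Group W]

theorem swap_pow {x y : W} {k : ℕ} (hy : y * y = 1) (h : (x * y) ^ k = 1) : (x⁻¹ * y) ^ k = 1 := by
  have hyi : y⁻¹ = y := inv_eq_of_mul_eq_one_right hy
  have h1 : x⁻¹ * y = (y * x)⁻¹ := by rw [mul_inv_rev, hyi]
  have h2 : y * x = x⁻¹ * (x * y) * x⁻¹⁻¹ := by group
  rw [h1, inv_pow, h2, conj_pow, h]
  group

theorem pow_two_of_commute {a b : W} (ha : a * a = 1) (hb : b * b = 1) (h : Commute a b) :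
    (a * b) ^ 2 = 1 := by
  rw [h.mul_pow, sq, sq, ha, hb, one_mul]

theorem pow_three_of_braid {a b : W} (ha : a * a = 1) (hb : b * b = 1)
    (h : a * b * a = b * a * b) : (a * b) ^ 3 = 1 := by
  calc (a * b) ^ 3 = a * b * a * (b * a * b) := by simp [pow_succ, mul_assoc]
    _ = a * b * a * (a * b * a) := by rw [h]
    _ = a * b * (a * a) * b * a := by group
    _ = 1 := by rw [ha, mul_one, mul_assoc a b b, hb, mul_one, ha]

theorem braid_of_pow_three {a b : W} (ha : a * a = 1) (hb : b * b = 1)
    (h : (a * b) ^ 3 = 1) : a * b * a = b * a * b := by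
  have ha' : a⁻¹ = a := inv_eq_of_mul_eq_one_right ha
  have hb' : b⁻¹ = b := inv_eq_of_mul_eq_one_right hb
  have h' : a * b * a * (b * a * b) = 1 := by simpa [pow_succ, mul_assoc] using h
  rw [mul_eq_one_iff_eq_inv, mul_inv_rev, mul_inv_rev, ha', hb'] at h'
  simpa [mul_assoc] using h'

theorem commute_of_pow_two {a b : W} (ha : a * a = 1) (hb : b * b = 1)
    (h : (a * b) ^ 2 = 1) : Commute a b := by
  have ha' : a⁻¹ = a := inv_eq_of_mul_eq_one_right ha
  have hb' : b⁻¹ = b := inv_eq_of_mul_eq_one_right hb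
  rw [sq, mul_eq_one_iff_eq_inv, mul_inv_rev, ha', hb'] at h
  exact h

/-- Products `g 0 * g (i + 1)` satisfy the relators. -/
theorem rels_hold {m : ℕ} {g : ℕ → W} (hg : RelA g (m + 1)) :
    ∀ r ∈ rels m, FreeGroup.lift (fun i : Fin m => g 0 * g (i.val + 1)) r = 1 := by
  obtain ⟨h1, h2, h3⟩ := hg
  have h0 : g 0 * g 0 = 1 := h1 0 (by omega)
  have hconj : ∀ a b, 2 ≤ b → b < m + 1 →
      g 0 * g a * (g 0 * g b) = g 0 * (g a * g b) * (g 0)⁻¹ := fun a b hb hbm => by
    rw [inv_eq_of_mul_eq_one_right h0]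
    calc g 0 * g a * (g 0 * g b) = g 0 * g a * (g b * g 0) := by rw [(h3 0 b (by omega) hbm).eq]
      _ = _ := by simp [mul_assoc]
  rintro r (((⟨i, hi, rfl⟩ | ⟨i, hi, rfl⟩) | ⟨i, j, hij, rfl⟩) | ⟨i, j, hij, rfl⟩)
  · rw [map_pow, FreeGroup.lift_apply_of, hi]
    exact pow_three_of_braid h0 (h1 1 (by omega)) (h2 0 (by have := i.2; omega))
  · rw [map_pow, FreeGroup.lift_apply_of]
    exact pow_two_of_commute h0 (h1 _ (by have := i.2; omega)) (h3 0 _ (by omega) (by have := i.2; omega))
  · have := j.2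
    rw [map_pow, map_mul, FreeGroup.lift_apply_of, FreeGroup.lift_apply_of,
      hconj _ _ (by omega) (by omega), conj_pow, hij,
      pow_three_of_braid (h1 _ (by omega)) (h1 _ (by omega)) (h2 _ (by omega))]
    group
  · have := j.2
    rw [map_pow, map_mul, FreeGroup.lift_apply_of, FreeGroup.lift_apply_of,
      hconj _ _ (by omega) (by omega), conj_pow,
      pow_two_of_commute (h1 _ (by omega)) (h1 _ (by omega)) (h3 _ _ (by omega) (by omega))]
    group

end

/-- The presented group is the alternating group. -/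
theorem presented_equiv (m : ℕ) (hm : 1 ≤ m) :
    Nonempty (PresentedGroup (rels m) ≃* alternatingGroup (Fin (m + 2))) := by
  classical
  let x : Fin m → PresentedGroup (rels m) := fun i => PresentedGroup.of i
  have hx3 : ∀ i : Fin m, i.val = 0 → x i ^ 3 = 1 := fun i hi =>
    PresentedGroup.one_of_mem (rels := rels m) (Or.inl (Or.inl (Or.inl ⟨i, hi, rfl⟩)))
  have hx2 : ∀ i : Fin m, 1 ≤ i.val → x i * x i = 1 := fun i hi => (sq (x i)).symm.trans
    (PresentedGroup.one_of_mem (rels := rels m) (Or.inl (Or.inl (Or.inr ⟨i, hi, rfl⟩))))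
  have hadj : ∀ i j : Fin m, j.val = i.val + 1 → (x i * x j) ^ 3 = 1 := fun i j hij =>
    PresentedGroup.one_of_mem (rels := rels m) (Or.inl (Or.inr ⟨i, j, hij, rfl⟩))
  have hfar : ∀ i j : Fin m, i.val + 1 < j.val → (x i * x j) ^ 2 = 1 := fun i j hij =>
    PresentedGroup.one_of_mem (rels := rels m) (Or.inr ⟨i, j, hij, rfl⟩)
  -- the outer automorphism
  let y : Fin m → PresentedGroup (rels m) := fun i => if i.val = 0 then (x i)⁻¹ else x i
  have hy0 : ∀ i j : Fin m, 1 ≤ j.val → ∀ k, (x i * x j) ^ k = 1 → (y i * y j) ^ k = 1 := by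
    intro i j hj k h
    simp only [y, if_neg (show j.val ≠ 0 by omega)]
    split
    · exact swap_pow (hx2 j hj) h
    · exact h
  have hyrel : ∀ r ∈ rels m, FreeGroup.lift y r = 1 := by
    rintro r (((⟨i, hi, rfl⟩ | ⟨i, hi, rfl⟩) | ⟨i, j, hij, rfl⟩) | ⟨i, j, hij, rfl⟩)
    · rw [map_pow, FreeGroup.lift_apply_of]
      simp only [y, if_pos hi, inv_pow, hx3 i hi, inv_one]
    · rw [map_pow, FreeGroup.lift_apply_of, sq]
      simp only [y, if_neg (show i.val ≠ 0 by omega), hx2 i hi]
    · rw [map_pow, map_mul, FreeGroup.lift_apply_of, FreeGroup.lift_apply_of]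
      exact hy0 i j (by omega) 3 (hadj i j hij)
    · rw [map_pow, map_mul, FreeGroup.lift_apply_of, FreeGroup.lift_apply_of]
      exact hy0 i j (by omega) 2 (hfar i j hij)
  let a := PresentedGroup.toGroup hyrel
  have haa : a.comp a = MonoidHom.id _ := PresentedGroup.ext fun i => by
    simp only [MonoidHom.comp_apply, MonoidHom.id_apply, a, PresentedGroup.toGroup.of, y]
    split_ifs with h <;> simp [h, x, y]
  let α : MulAut (PresentedGroup (rels m)) := MonoidHom.toMulEquiv a a haa haa
  have hα2 : α * α = 1 := MulEquiv.ext fun p => DFunLike.congr_fun haa p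
  let θ : ℤˣ →* MulAut (PresentedGroup (rels m)) :=
    { toFun := fun u => if u = 1 then 1 else α
      map_one' := if_pos rfl
      map_mul' := fun u v => by
        rcases Int.units_eq_one_or u with rfl | rfl <;> rcases Int.units_eq_one_or v with rfl | rfl <;>
          simp [hα2] }
  have hne : (-1 : ℤˣ) ≠ 1 := by decide
  have hθ : θ (-1) = α := by
    show (if (-1 : ℤˣ) = 1 then 1 else α) = α
    exact if_neg hne
  let τ : PresentedGroup (rels m) ⋊[θ] ℤˣ := SemidirectProduct.inr (-1)
  have hττ : τ * τ = 1 := by rw [← map_mul]; simp [τ]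
  have hcomm : ∀ p, τ * SemidirectProduct.inl p = SemidirectProduct.inl (a p) * τ := fun p => by
    show _ = SemidirectProduct.inl (α p) * τ
    rw [← hθ, SemidirectProduct.inl_aut, map_inv, inv_mul_cancel_right]
  let g : ℕ → PresentedGroup (rels m) ⋊[θ] ℤˣ := fun k => match k with
    | 0 => τ
    | i + 1 => if h : i < m then τ * SemidirectProduct.inl (x ⟨i, h⟩) else 1
  have hgs : ∀ i (h : i < m), g (i + 1) = τ * SemidirectProduct.inl (x ⟨i, h⟩) :=
    fun i h => dif_pos h
  have hgg : ∀ i j (hi : i < m) (hj : j < m), g (i + 1) * g (j + 1) =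
      SemidirectProduct.inl (y ⟨i, hi⟩ * x ⟨j, hj⟩) := fun i j hi hj => by
    rw [hgs i hi, hgs j hj, hcomm, ← mul_assoc, mul_assoc (SemidirectProduct.inl (a _)), hττ,
      mul_one, ← map_mul]
    simp [a, x]
  have hyx : ∀ i : Fin m, y i * x i = 1 := fun i => by
    by_cases h : i.val = 0
    · simp [y, h]
    · simp only [y, if_neg h]; exact hx2 i (by omega)
  have hyk : ∀ i j : Fin m, 1 ≤ j.val → ∀ k, (x i * x j) ^ k = 1 → (y i * x j) ^ k = 1 :=
    fun i j hj k h => by
      simp only [y]
      split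
      · exact swap_pow (hx2 j hj) h
      · exact h
  have hsq : ∀ i, i < m + 1 → g i * g i = 1 := by
    intro i hi
    rcases i with _ | i
    · exact hττ
    · rw [hgg i i (by omega) (by omega), hyx, map_one]
  have hrel : RelA g (m + 1) := by
    refine ⟨hsq, fun i hi => braid_of_pow_three (hsq i (by omega)) (hsq _ hi) ?_,
      fun i j hij hj => commute_of_pow_two (hsq i (by omega)) (hsq j hj) ?_⟩
    · rcases i with _ | i
      · show (τ * g (0 + 1)) ^ 3 = 1
        rw [hgs 0 (by omega), ← mul_assoc, hττ, one_mul, ← map_pow, hx3 _ rfl, map_one]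
      · rw [hgg i (i + 1) (by omega) (by omega), ← map_pow,
          hyk _ _ (by simp) 3 (hadj ⟨i, by omega⟩ ⟨i + 1, by omega⟩ rfl), map_one]
    · rcases j with _ | j
      · omega
      rcases i with _ | i
      · show (τ * g (j + 1)) ^ 2 = 1
        rw [hgs j (by omega), ← mul_assoc, hττ, one_mul, ← map_pow, sq,
          hx2 ⟨j, by omega⟩ (by show 1 ≤ j; omega), map_one]
      · rw [hgg i j (by omega) (by omega), ← map_pow,
          hyk _ _ (by show 1 ≤ j; omega) 2 (hfar ⟨i, by omega⟩ ⟨j, by omega⟩ (by show i + 1 < j; omega)),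
          map_one]
  obtain ⟨ψ, hψ, hψr⟩ := exists_hom g (m + 1) hrel
  have hψsurj : Function.Surjective ψ := by
    rw [← MonoidHom.range_eq_top, hψr, eq_top_iff]
    set K := Subgroup.closure (g '' Set.Iio (m + 1))
    have hgK : ∀ i, i < m + 1 → g i ∈ K := fun i hi => Subgroup.subset_closure ⟨i, hi, rfl⟩
    have hτK : τ ∈ K := hgK 0 (by omega)
    have hxK : ∀ p, SemidirectProduct.inl (φ := θ) p ∈ K := by
      intro p
      have htop : (⊤ : Subgroup (PresentedGroup (rels m))) ≤ K.comap SemidirectProduct.inl := by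
        rw [← PresentedGroup.closure_range_of, Subgroup.closure_le]
        rintro _ ⟨i, rfl⟩
        have := mul_mem hτK (hgK (i.val + 1) (by have := i.2; omega))
        rwa [hgs i.val i.2, ← mul_assoc, hττ, one_mul] at this
      exact htop (Subgroup.mem_top p)
    intro e _
    rw [← SemidirectProduct.inl_left_mul_inr_right e]
    refine mul_mem (hxK _) ?_
    rcases Int.units_eq_one_or e.right with h | h <;> rw [h]
    · rw [map_one]; exact one_mem _
    · exact hτK
  -- the map to the symmetric group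
  set s : ℕ → Equiv.Perm (Fin (m + 2)) := adjSwap (m + 1) with hs
  have hsrel : RelA s (m + 1) := adjSwap_relA (m + 1)
  let φ := PresentedGroup.toGroup (rels_hold (g := s) hsrel)
  have hφ : ∀ i : Fin m, φ (x i) = s 0 * s (i.val + 1) := fun i => PresentedGroup.toGroup.of _
  let χ : ℤˣ →* Equiv.Perm (Fin (m + 2)) :=
    { toFun := fun u => if u = 1 then 1 else s 0
      map_one' := if_pos rfl
      map_mul' := fun u v => by
        rcases Int.units_eq_one_or u with rfl | rfl <;> rcases Int.units_eq_one_or v with rfl | rfl <;>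
          simp [hsrel.1 0 (by omega)] }
  have hχ : χ (-1) = s 0 := by
    show (if (-1 : ℤˣ) = 1 then 1 else s 0) = s 0
    exact if_neg hne
  have hcompat : ∀ u, φ.comp (θ u).toMonoidHom = (MulAut.conj (χ u)).toMonoidHom.comp φ := by
    intro u
    refine PresentedGroup.ext fun i => ?_
    rcases Int.units_eq_one_or u with rfl | rfl
    · simp
    · show φ (θ (-1) (x i)) = χ (-1) * φ (x i) * (χ (-1))⁻¹
      rw [hθ, hχ, hφ]
      show φ (a (x i)) = _
      have h00 := hsrel.1 0 (by omega)
      simp only [a, x, PresentedGroup.toGroup.of, y]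
      rw [inv_eq_of_mul_eq_one_right h00]
      by_cases h : i.val = 0
      · rw [if_pos h, map_inv, show φ (PresentedGroup.of i) = _ from hφ i, h, mul_inv_rev,
          inv_eq_of_mul_eq_one_right h00, inv_eq_of_mul_eq_one_right (hsrel.1 1 (by omega))]
        rw [← mul_assoc (s 0), h00, one_mul]
      · rw [if_neg h, show φ (PresentedGroup.of i) = _ from hφ i, ← mul_assoc (s 0), h00, one_mul]
        exact hsrel.2.2 0 _ (by omega) (by have := i.2; omega)
  let Ψ := SemidirectProduct.lift φ χ hcompat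
  have hΨψ : Ψ.comp ψ = MonoidHom.id _ := by
    refine MonoidHom.eq_of_eqOn_top ?_
    rw [← closure_adjSwap (m + 1)]
    refine MonoidHom.eqOn_closure ?_
    rintro _ ⟨i, hi, rfl⟩
    show Ψ (ψ _) = adjSwap (m + 1) i
    rw [hψ i hi]
    rcases i with _ | i
    · exact (SemidirectProduct.lift_inr ..).trans hχ
    · have hi' : i < m := by simp [Set.mem_Iio] at hi; omega
      rw [hgs i hi', map_mul]
      rw [SemidirectProduct.lift_inl, SemidirectProduct.lift_inr, hχ, hφ, ← mul_assoc,
        hsrel.1 0 (by omega), one_mul]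
  have hΨinj : Function.Injective Ψ := by
    intro e f h
    obtain ⟨p, rfl⟩ := hψsurj e
    obtain ⟨q, rfl⟩ := hψsurj f
    rw [show p = q from ((DFunLike.congr_fun hΨψ p).symm.trans h).trans (DFunLike.congr_fun hΨψ q)]
  have hφinj : Function.Injective φ := fun p q h => by
    refine SemidirectProduct.inl_injective (φ := θ) (hΨinj ?_)
    simpa [Ψ] using h
  have hsign : ∀ i, i < m + 1 → Equiv.Perm.sign (s i) = -1 := fun i hi => by
    rw [hs]
    simp only [adjSwap, dif_pos hi]
    exact Equiv.Perm.sign_swap (by simp [Fin.ext_iff])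
  have hrange : φ.range = alternatingGroup (Fin (m + 2)) := by
    apply le_antisymm
    · rw [MonoidHom.range_eq_map, ← PresentedGroup.closure_range_of, MonoidHom.map_closure,
        Subgroup.closure_le]
      rintro _ ⟨_, ⟨i, rfl⟩, rfl⟩
      rw [SetLike.mem_coe, Equiv.Perm.mem_alternatingGroup, show φ (PresentedGroup.of i) = _ from hφ i,
        map_mul, hsign 0 (by omega), hsign _ (by have := i.2; omega)]
      rfl
    · intro σ hσ
      rw [Equiv.Perm.mem_alternatingGroup] at hσ
      set e := ψ σ with he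
      have hσe : σ = φ e.left * χ e.right := (DFunLike.congr_fun hΨψ σ).symm
      have hφs : ∀ p, Equiv.Perm.sign (φ p) = 1 := by
        intro p
        have hcomp : Equiv.Perm.sign.comp φ = 1 := PresentedGroup.ext fun i => by
          show Equiv.Perm.sign (φ (x i)) = 1
          rw [hφ, map_mul, hsign 0 (by omega), hsign _ (by have := i.2; omega)]
          rfl
        exact DFunLike.congr_fun hcomp p
      rcases Int.units_eq_one_or e.right with h | h
      · rw [h, map_one, mul_one] at hσe
        exact ⟨e.left, hσe.symm⟩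
      · exfalso
        rw [hσe, map_mul, hφs, one_mul, h, hχ, hsign 0 (by omega)] at hσ
        exact absurd hσ (by decide)
  exact ⟨(MonoidHom.ofInjective hφinj).trans (MulEquiv.subgroupCongr hrange)⟩

end Cfsg.Agent.Recog.Carmichael
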