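import Mathlib

/-!
A group of order 7920 with a self-centralising element of order eleven is simple.
-/

set_option autoImplicit false
set_option linter.style.haveILetI false

namespace Cfsg.Agent.Recog.ElevenSC

variable {G : Type*} [Group G] [Finite G]

theorem isSimpleGroup (hcard : Nat.card G = 7920) (w : G) (hw : orderOf w = 11)
    (hC : Nat.card (Subgroup.centralizer ({w} : Set G)) = 11) : IsSimpleGroup G := by
  haveI h11 : Fact (Nat.Prime 11) := ⟨by norm_num⟩
  have hcardP : ∀ P : Sylow 11 G, Nat.card P = 11 := fun P => by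
    obtain ⟨n, hn⟩ := (IsPGroup.iff_card (p := 11)).mp P.isPGroup'
    have h1 : 11 ^ n ∣ 7920 := hn ▸ hcard ▸ (P : Subgroup G).card_subgroup_dvd_card
    have hn1 : n < 2 := by
      by_contra h2
      have h3 : 11 ^ 2 ∣ 7920 := (pow_dvd_pow 11 (by omega)).trans h1
      norm_num at h3
    have hn0 : n ≠ 0 := by
      rintro rfl
      have h2 := P.dvd_card_of_dvd_card (hcard ▸ (by norm_num : 11 ∣ 7920))
      rw [hn] at h2
      norm_num at h2
    rw [hn, show n = 1 by omega, pow_one]
  have hPw : IsPGroup 11 (Subgroup.zpowers w) :=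
    IsPGroup.of_card (n := 1) (by rw [Nat.card_zpowers, hw, pow_one])
  obtain ⟨P, hP⟩ := hPw.exists_le_sylow
  have hPeq : Subgroup.zpowers w = (P : Subgroup G) :=
    Subgroup.eq_of_le_of_card_ge hP (by rw [hcardP, Nat.card_zpowers, hw])
  have hker : Nat.card (Subgroup.centralizer ((P : Subgroup G) : Set G)) = 11 := by
    rw [← hPeq, Subgroup.zpowers_eq_closure, Subgroup.centralizer_closure]; exact hC
  -- the normaliser has order `55`
  set NP := Subgroup.normalizer ((P : Subgroup G) : Set G) with hNP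
  have hnP : Nat.card (Sylow 11 G) = 144 ∧ Nat.card NP = 55 := by
    let f := Subgroup.normalizerMonoidHom (P : Subgroup G)
    have hk : Nat.card f.ker = 11 := by
      rw [Subgroup.normalizerMonoidHom_ker,
        Nat.card_congr (Subgroup.subgroupOfEquivOfLe (Subgroup.centralizer_le_normalizer _)).toEquiv, hker]
    have h1 := Subgroup.card_eq_card_quotient_mul_card_subgroup f.ker
    rw [Nat.card_congr (QuotientGroup.quotientKerEquivRange f).toEquiv, hk] at h1
    have h2 := f.range.card_subgroup_dvd_card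
    haveI : IsCyclic (P : Subgroup G) := isCyclic_of_prime_card (hcardP P)
    rw [IsCyclic.card_mulAut, hcardP P, Nat.totient_prime h11.out] at h2
    have h3 : Nat.card (Sylow 11 G) * (Nat.card f.range * 11) = 7920 := by
      rw [← h1, P.card_eq_index_normalizer]
      exact (Subgroup.index_mul_card _).trans hcard
    have hmod := card_sylow_modEq_one 11 G
    rw [Nat.ModEq] at hmod
    have hr : Nat.card f.range ∈ Nat.divisors 10 := Nat.mem_divisors.mpr ⟨by simpa using h2, by norm_num⟩
    rw [show Nat.divisors 10 = {1, 2, 5, 10} by decide] at hr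
    simp only [Finset.mem_insert, Finset.mem_singleton] at hr
    rcases hr with hr | hr | hr | hr <;> rw [hr] at h3 h1 <;>
      first
        | (exact ⟨by omega, h1⟩)
        | omega
  obtain ⟨hn11, hNP55⟩ := hnP
  -- an invariant `q`-group is trivial
  have hfree : ∀ x : G, w * x * w⁻¹ = x → orderOf x ∣ 11 := fun x hx => by
    rw [← hC]
    exact Subgroup.orderOf_dvd_natCard _
      (Subgroup.mem_centralizer_singleton_iff.mpr (mul_inv_eq_iff_eq_mul.mp hx).symm)
  have hsmall : ∀ N : Subgroup G, N.Normal → ¬ 11 ∣ Nat.card N → N = ⊥ := by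
    intro N hN hN11'
    by_contra hne
    obtain ⟨q, hq, hqN⟩ := Nat.exists_prime_and_dvd (n := Nat.card N)
      (fun e => hne (Subgroup.eq_bot_of_card_eq N e))
    haveI := Fact.mk hq
    haveI := hN
    obtain ⟨Q⟩ : Nonempty (Sylow q N) := inferInstance
    set Q' : Subgroup G := (Q : Subgroup N).map N.subtype with hQ'
    have hfr : Subgroup.normalizer (Q' : Set G) ⊔ N = ⊤ := Sylow.normalizer_sup_eq_top Q
    have h11N : 11 ∣ Nat.card (Subgroup.normalizer (Q' : Set G)) := by
      have h1 := N.card_mul_index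
      rw [hcard, ← Subgroup.relIndex_top_right, ← hfr, Subgroup.relIndex_sup_right] at h1
      have h2 : 11 ∣ N.relIndex (Subgroup.normalizer (Q' : Set G)) :=
        ((Nat.Prime.dvd_mul h11.out).mp ((by norm_num : 11 ∣ 7920).trans (dvd_of_eq h1.symm))).resolve_left hN11'
      exact h2.trans (Subgroup.relIndex_dvd_card _ _)
    obtain ⟨⟨u, hu⟩, huo⟩ := exists_prime_orderOf_dvd_card' (G := Subgroup.normalizer (Q' : Set G)) 11 h11N
    rw [Subgroup.orderOf_mk] at huo
    -- move `u` into `P`
    obtain ⟨S, hS⟩ := (IsPGroup.of_card (G := Subgroup.zpowers u) (n := 1) (p := 11)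
      (by rw [Nat.card_zpowers, huo, pow_one])).exists_le_sylow
    obtain ⟨c, hc⟩ := MulAction.exists_smul_eq G S P
    set v := c * u * c⁻¹ with hv
    have hvP : v ∈ (P : Subgroup G) := by
      rw [← hc, Sylow.smul_def, Sylow.pointwise_smul_def]
      exact ⟨u, hS (Subgroup.mem_zpowers u), rfl⟩
    have hvo : orderOf v = 11 := by
      rw [hv, ← huo]; exact MulEquiv.orderOf_eq (MulAut.conj c) u
    have hzv : Subgroup.zpowers v = (P : Subgroup G) :=
      Subgroup.eq_of_le_of_card_ge (Subgroup.zpowers_le.mpr hvP) (by rw [hcardP, Nat.card_zpowers, hvo])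
    have hwv : w ∈ Subgroup.zpowers v := by rw [hzv, ← hPeq]; exact Subgroup.mem_zpowers w
    set R : Subgroup G := Q'.map (MulAut.conj c).toMonoidHom with hR
    have hvR : v ∈ Subgroup.normalizer (R : Set G) := by
      rw [Subgroup.mem_normalizer_iff]
      intro x
      simp only [hR, Subgroup.mem_map_equiv, MulAut.conj_symm_apply, hv]
      have := Subgroup.mem_normalizer_iff.mp hu (c⁻¹ * x * c)
      refine this.trans (Iff.of_eq (congrArg (· ∈ Q') ?_))
      group
    have hwR : w ∈ Subgroup.normalizer (R : Set G) := Subgroup.zpowers_le.mpr hvR hwv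
    obtain ⟨k, hk⟩ := (IsPGroup.iff_card (p := q)).mp Q.isPGroup'
    have hRcard : Nat.card R = q ^ k := by
      rw [hR, Subgroup.card_map_of_injective (MulAut.conj c).injective, hQ',
        Subgroup.card_map_of_injective N.subtype_injective, hk]
    have hk0 : k ≠ 0 := by
      rintro rfl
      have h2 := Q.dvd_card_of_dvd_card hqN
      rw [hk, pow_zero, Nat.dvd_one] at h2
      exact hq.one_lt.ne' h2
    have hq11 : q ≠ 11 := fun e => hN11' (e ▸ hqN)
    letI : MulAction (Subgroup.zpowers w) R :=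
      { smul := fun s x => ⟨(s : G) * x * (s : G)⁻¹,
          (Subgroup.mem_normalizer_iff.mp ((Subgroup.zpowers_le.mpr hwR) s.2) x).mp x.2⟩
        one_smul := fun x => Subtype.ext (show (1 : G) * x * (1 : G)⁻¹ = x by simp)
        mul_smul := fun s t x => Subtype.ext
          (show ((s : G) * t) * x * ((s : G) * t)⁻¹ = s * (t * x * (t : G)⁻¹) * (s : G)⁻¹ by group) }
    have hmod := hPw.card_modEq_card_fixedPoints R
    have hfix : Nat.card (MulAction.fixedPoints (Subgroup.zpowers w) R) = 1 := by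
      rw [Nat.card_eq_one_iff_unique]
      refine ⟨⟨fun a b => ?_⟩, ⟨⟨1, fun s => Subtype.ext (show (s : G) * 1 * (s : G)⁻¹ = 1 by simp)⟩⟩⟩
      have key : ∀ a : MulAction.fixedPoints (Subgroup.zpowers w) R, (a.1 : G) = 1 := fun a => by
        have h1 : w * a.1 * w⁻¹ = a.1 := congrArg Subtype.val (a.2 ⟨w, Subgroup.mem_zpowers w⟩)
        have h2 : orderOf (a.1 : G) ∣ q ^ k := by
          rw [← hRcard]; exact Subgroup.orderOf_dvd_natCard _ a.1.2
        exact orderOf_eq_one_iff.mp (Nat.eq_one_of_dvd_coprimes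
          (Nat.Coprime.pow_left _ ((Nat.coprime_primes hq h11.out).mpr hq11)) h2 (hfree _ h1))
      exact Subtype.ext (Subtype.ext ((key a).trans (key b).symm))
    rw [hfix, hRcard, Nat.ModEq] at hmod
    have hdvd : q ^ k ∣ 11 * 720 := by
      have := R.card_subgroup_dvd_card
      rw [hRcard, hcard] at this
      exact this
    have hd720 : q ^ k ∣ 720 := (Nat.Coprime.pow_left _ ((Nat.coprime_primes hq h11.out).mpr hq11)).dvd_of_dvd_mul_left hdvd
    have hppow : IsPrimePow (q ^ k) := ⟨q, k, hq.prime, Nat.pos_of_ne_zero hk0, rfl⟩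
    have key : ∀ d ∈ Nat.divisors 720, d % 11 = 1 → d = 1 ∨ d % 6 = 0 ∨ d % 15 = 0 := by decide +kernel
    have hmix : ∀ a b : ℕ, a.Prime → b.Prime → a ≠ b → a * b ∣ q ^ k → False := fun a b ha hb hab h => hab
      (((Nat.prime_dvd_prime_iff_eq ha hq).mp (ha.dvd_of_dvd_pow ((dvd_mul_right a b).trans h))).trans
        ((Nat.prime_dvd_prime_iff_eq hb hq).mp (hb.dvd_of_dvd_pow ((dvd_mul_left b a).trans h))).symm)
    rcases key _ (Nat.mem_divisors.mpr ⟨hd720, by norm_num⟩) hmod with h1 | h1 | h1
    · exact hppow.ne_one h1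
    · exact hmix 2 3 Nat.prime_two Nat.prime_three (by norm_num) (Nat.dvd_of_mod_eq_zero h1)
    · exact hmix 3 5 Nat.prime_three (by norm_num) (by norm_num) (Nat.dvd_of_mod_eq_zero h1)
  haveI : Nontrivial G := Finite.one_lt_card_iff_nontrivial.mp (by omega)
  refine ⟨fun N hN => ?_⟩
  by_cases h11N : 11 ∣ Nat.card N
  swap
  · exact Or.inl (hsmall N hN h11N)
  right
  by_contra htop
  haveI := hN
  -- `N` contains `P`
  obtain ⟨⟨u, hu⟩, huo⟩ := exists_prime_orderOf_dvd_card' (G := N) 11 h11N
  rw [Subgroup.orderOf_mk] at huo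
  obtain ⟨S, hS⟩ := (IsPGroup.of_card (G := Subgroup.zpowers u) (n := 1) (p := 11)
    (by rw [Nat.card_zpowers, huo, pow_one])).exists_le_sylow
  have hSN : (S : Subgroup G) ≤ N := by
    rw [← Subgroup.eq_of_le_of_card_ge hS (by rw [hcardP, Nat.card_zpowers, huo])]
    exact Subgroup.zpowers_le.mpr hu
  have hPN : (P : Subgroup G) ≤ N := by
    obtain ⟨c, hc⟩ := MulAction.exists_smul_eq G S P
    rw [← hc, Sylow.smul_def, Sylow.pointwise_smul_def]
    rintro _ ⟨y, hy, rfl⟩
    exact hN.conj_mem y (hSN hy) c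
  set P' : Subgroup N := (P : Subgroup G).subgroupOf N with hP'
  have hP'card : Nat.card P' = 11 := by
    rw [hP', Nat.card_congr (Subgroup.subgroupOfEquivOfLe hPN).toEquiv, hcardP]
  have hP'map : P'.map N.subtype = (P : Subgroup G) := by
    rw [hP', Subgroup.subgroupOf_map_subtype, inf_eq_left.mpr hPN]
  let PN : Sylow 11 N := P.subtype hPN
  have hPNeq : (PN : Subgroup N) = P' := rfl
  have hfr : NP ⊔ N = ⊤ := by
    have := Sylow.normalizer_sup_eq_top PN
    rwa [hPNeq, hP'map] at this
  have hNN : Nat.card (Subgroup.normalizer ((PN : Subgroup N) : Set N)) = 11 := by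
    set M := (Subgroup.normalizer ((PN : Subgroup N) : Set N)).map N.subtype with hM
    have hMle : M ≤ NP := by
      rintro _ ⟨x, hx, rfl⟩
      rw [hNP, Subgroup.mem_normalizer_iff]
      intro y
      constructor
      · intro hy
        exact (Subgroup.mem_normalizer_iff.mp hx ⟨y, hPN hy⟩).mp hy
      · intro hy
        have hyN : y ∈ N := by
          have h1 : (x : G) * y * (x : G)⁻¹ ∈ N := hPN hy
          have h2 := hN.conj_mem _ h1 (x : G)⁻¹
          simpa [mul_assoc] using h2
        exact (Subgroup.mem_normalizer_iff.mp hx ⟨y, hyN⟩).mpr hy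
    have h1 := Subgroup.card_dvd_of_le hMle
    rw [hNP55, hM, Subgroup.card_map_of_injective N.subtype_injective] at h1
    have h2 : 11 ∣ Nat.card (Subgroup.normalizer ((PN : Subgroup N) : Set N)) :=
      (dvd_of_eq hP'card.symm).trans (Subgroup.card_dvd_of_le Subgroup.le_normalizer)
    obtain ⟨a, ha⟩ := h2
    rw [ha] at h1 ⊢
    have : a ∣ 5 := Nat.dvd_of_mul_dvd_mul_left (by norm_num) (show 11 * a ∣ 11 * 5 by simpa using h1)
    rcases (Nat.dvd_prime (by norm_num : Nat.Prime 5)).mp this with rfl | rfl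
    · rfl
    · have heM : M = NP := Subgroup.eq_of_le_of_card_ge hMle
        (by rw [hNP55, hM, Subgroup.card_map_of_injective N.subtype_injective, ha])
      have : NP ≤ N := by rw [← heM]; exact Subgroup.map_subtype_le _
      rw [sup_eq_right.mpr this] at hfr
      exact absurd hfr htop
  have hPNcard : Nat.card PN = 11 := hP'card
  have hPZ : Subgroup.normalizer ((PN : Subgroup N) : Set N) ≤ Subgroup.centralizer ((PN : Subgroup N) : Set N) := by
    rw [← Subgroup.eq_of_le_of_card_ge Subgroup.le_normalizer (by rw [hNN]; exact hPNcard.ge)]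
    haveI : IsCyclic (PN : Subgroup N) := isCyclic_of_prime_card hPNcard
    letI := IsCyclic.commGroup (α := (PN : Subgroup N))
    intro x hx
    rw [Subgroup.mem_centralizer_iff]
    intro y hy
    exact congrArg Subtype.val (mul_comm (⟨y, hy⟩ : (PN : Subgroup N)) ⟨x, hx⟩)
  set K := (MonoidHom.transferSylow PN hPZ).ker with hK
  have hcompl := MonoidHom.ker_transferSylow_isComplement' PN hPZ
  have hKcard : Nat.card K * 11 = Nat.card N := by rw [← hPNcard]; exact hcompl.card_mul_card
  have hN7920 : Nat.card N ∣ 7920 := hcard ▸ N.card_subgroup_dvd_card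
  have hK11 : ¬ 11 ∣ Nat.card K := by
    rintro ⟨c, hc⟩
    have : 121 ∣ 7920 := (show 121 ∣ Nat.card N from ⟨c, by rw [← hKcard, hc]; ring⟩).trans hN7920
    omega
  have hKidx : K.index = 11 := hcompl.symm.index_eq_card.trans hPNcard
  set K' := K.map N.subtype
  have hK'n : K'.Normal := by
    refine ⟨?_⟩
    rintro _ ⟨x, hx, rfl⟩ g
    refine ⟨⟨g * x * g⁻¹, hN.conj_mem x x.2 g⟩, ?_, rfl⟩
    change (⟨g * x * g⁻¹, hN.conj_mem x x.2 g⟩ : N) ∈ K
    rw [← QuotientGroup.eq_one_iff]
    have h1 : orderOf (QuotientGroup.mk' K ⟨g * x * g⁻¹, hN.conj_mem x x.2 g⟩) ∣ Nat.card K := by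
      refine (orderOf_map_dvd _ _).trans ?_
      refine dvd_trans (dvd_of_eq ?_) (Subgroup.orderOf_dvd_natCard _ hx)
      exact ((Subgroup.orderOf_coe _).symm.trans (MulEquiv.orderOf_eq (MulAut.conj g) (x : G))).trans (Subgroup.orderOf_coe x)
    have h2 : orderOf (QuotientGroup.mk' K ⟨g * x * g⁻¹, hN.conj_mem x x.2 g⟩) ∣ 11 :=
      (orderOf_dvd_natCard _).trans (dvd_of_eq hKidx)
    exact orderOf_eq_one_iff.mp (Nat.eq_one_of_dvd_coprimes
      ((Nat.Prime.coprime_iff_not_dvd h11.out).mpr hK11).symm h1 h2)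
  have hKbot : K' = ⊥ := hsmall K' hK'n (by rwa [Subgroup.card_map_of_injective N.subtype_injective])
  have hK1 : Nat.card K = 1 := by
    rw [← Subgroup.card_map_of_injective N.subtype_injective]
    change Nat.card K' = 1
    rw [hKbot, Subgroup.card_bot]
  rw [hK1, one_mul] at hKcard
  have hPeqN : (P : Subgroup G) = N := Subgroup.eq_of_le_of_card_ge hPN (by rw [hcardP, ← hKcard])
  have hPn : (P : Subgroup G).Normal := by rw [hPeqN]; exact hN
  have h1 : NP = ⊤ := (Subgroup.normalizer_eq_top_iff).mpr hPn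
  rw [h1, Subgroup.card_top, hcard] at hNP55
  omega

end Cfsg.Agent.Recog.ElevenSC
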