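import Cfsg.Prelude.Def_Transfer
import Mathlib.GroupTheory.Transfer
import Mathlib.GroupTheory.PGroup
import Mathlib.LinearAlgebra.Matrix.SpecialLinearGroup
import Mathlib.Data.ZMod.QuotientGroup
import Mathlib.Tactic.FinCases
import Mathlib.Tactic.LinearCombination

/-!
# Coordinates in a group of shape `3^(1+2) : SL(2,3)`
-/

set_option autoImplicit false

namespace Cfsg.Agent.Recog.Heis

open Subgroup
open scoped commutatorElement

local notation "Z3" => ZMod 3
local notation "SL23" => Matrix.SpecialLinearGroup (Fin 2) (ZMod 3)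

section Pow

variable {G : Type*} [Group G]

/-- A power with exponent modulo three. -/
def pw (x : G) (i : Z3) : G := x ^ i.val

theorem pw_zero (x : G) : pw x 0 = 1 := by simp [pw]

theorem pw_one (x : G) : pw x 1 = x := pow_one x

theorem pw_natCast {x : G} (hx : x ^ 3 = 1) (n : ℕ) : pw x (n : Z3) = x ^ n := by
  rw [pw, ZMod.val_natCast]
  exact (pow_eq_pow_mod n hx).symm

theorem pw_add {x : G} (hx : x ^ 3 = 1) (i j : Z3) : pw x (i + j) = pw x i * pw x j := by
  rw [pw, pw, pw, ← pow_add, ZMod.val_add]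
  exact (pow_eq_pow_mod _ hx).symm

theorem pw_neg {x : G} (hx : x ^ 3 = 1) (i : Z3) : pw x (-i) = (pw x i)⁻¹ :=
  eq_inv_of_mul_eq_one_left (by rw [← pw_add hx, neg_add_cancel, pw_zero])

theorem pw_mem {H : Subgroup G} {x : G} (h : x ∈ H) (i : Z3) : pw x i ∈ H := pow_mem h _

theorem commute_pw {x y : G} (h : Commute x y) (i : Z3) : Commute (pw x i) y := h.pow_left _

theorem eq_zero_of_pw_eq_one {x : G} (hx : orderOf x = 3) {i : Z3} (h : pw x i = 1) : i = 0 := by
  rw [pw, ← orderOf_dvd_iff_pow_eq_one, hx] at h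
  exact (ZMod.val_eq_zero i).mp (Nat.eq_zero_of_dvd_of_lt h (ZMod.val_lt i))

theorem orderOf_eq_three {x : G} (hx : x ^ 3 = 1) (h1 : x ≠ 1) : orderOf x = 3 := by
  have : Fact (Nat.Prime 3) := ⟨Nat.prime_three⟩
  exact orderOf_eq_prime hx h1

theorem pw_swap {a b z : G} (hb : b ^ 3 = 1) (hz : z ^ 3 = 1)
    (hzc : ∀ g : G, Commute z g) (hab : b * a = a * b * z ^ 2) (ha : a ^ 3 = 1) (p q : Z3) :
    pw b p * pw a q = pw a q * pw b p * pw z (-(p * q)) := by
  have h1 : ∀ n : ℕ, b * a ^ n = a ^ n * b * (z ^ 2) ^ n := by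
    intro n
    induction n with
    | zero => simp
    | succ n ih =>
      rw [pow_succ a, ← mul_assoc, ih, pow_succ (z ^ 2),
        mul_assoc (a ^ n * b), ((hzc a).pow_left 2).pow_left n |>.eq, mul_assoc (a ^ n),
        ← mul_assoc b, hab]
      simp only [mul_assoc]
      rw [← pow_succ, ← pow_succ']
  have h2 : ∀ m n : ℕ, b ^ m * a ^ n = a ^ n * b ^ m * (z ^ 2) ^ (m * n) := by
    intro m n
    induction m with
    | zero => simp
    | succ m ih =>
      rw [pow_succ' b, mul_assoc, ih, ← mul_assoc, ← mul_assoc, h1, Nat.succ_mul, pow_add,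
        mul_assoc (a ^ n * b), (((hzc (b ^ m)).pow_left 2).pow_left n).eq]
      simp only [mul_assoc]
      rw [← pow_add, ← pow_add, add_comm]
  obtain ⟨m, rfl⟩ : ∃ m : ℕ, (m : Z3) = p := ⟨p.val, ZMod.natCast_zmod_val p⟩
  obtain ⟨n, rfl⟩ : ∃ n : ℕ, (n : Z3) = q := ⟨q.val, ZMod.natCast_zmod_val q⟩
  rw [show (-((m : Z3) * n)) = ((2 * (m * n) : ℕ) : Z3) by
    push_cast; generalize (m : Z3) * n = t; revert t; decide]
  rw [pw_natCast hb, pw_natCast ha, pw_natCast hz, h2, ← pow_mul]

end Pow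

section SLTwo

/-- Upper unitriangular element. -/
def upper (a : Z3) : SL23 := ⟨!![1, a; 0, 1], by simp [Matrix.det_fin_two]⟩

/-- Lower unitriangular element. -/
def lower (a : Z3) : SL23 := ⟨!![1, 0; a, 1], by simp [Matrix.det_fin_two]⟩

theorem aux_matrix : ∀ a b c d : Z3, a * d - b * c = 1 → c ≠ 0 →
    !![a, b; c, d] = !![1, (a - 1) * c; 0, 1] * !![1, 0; c, 1] * !![1, (d - 1) * c; 0, 1] := by
  decide

theorem mem_of_low {H : Subgroup SL23} (hE : ∀ a, upper a ∈ H) (hF : ∀ a, lower a ∈ H)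
    (A : SL23) (hc : (A : Matrix (Fin 2) (Fin 2) Z3) 1 0 ≠ 0) : A ∈ H := by
  obtain ⟨M, hM⟩ := A
  have hdet := hM
  rw [Matrix.det_fin_two] at hdet
  have hm := aux_matrix _ _ _ _ hdet hc
  rw [← Matrix.eta_fin_two M] at hm
  have e : (⟨M, hM⟩ : SL23) =
      upper ((M 0 0 - 1) * M 1 0) * lower (M 1 0) * upper ((M 1 1 - 1) * M 1 0) := Subtype.ext hm
  rw [e]
  exact mul_mem (mul_mem (hE _) (hF _)) (hE _)

theorem eq_top_of_unitriangular {H : Subgroup SL23} (hE : ∀ a, upper a ∈ H)
    (hF : ∀ a, lower a ∈ H) : H = ⊤ := by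
  refine eq_top_iff.mpr fun A _ => ?_
  by_cases hc : (A : Matrix (Fin 2) (Fin 2) Z3) 1 0 = 0
  · have h := mem_of_low hE hF (A * lower 1) ?_
    · have h' := mul_mem h (inv_mem (hF 1))
      rwa [mul_inv_cancel_right] at h'
    · intro h0
      have hdet := A.2
      rw [Matrix.det_fin_two, hc, mul_zero, sub_zero] at hdet
      rw [Matrix.SpecialLinearGroup.coe_mul] at h0
      simp [lower, Matrix.mul_apply, Fin.sum_univ_two, hc] at h0
      rw [h0, mul_zero] at hdet
      exact absurd hdet (by decide)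
  · exact mem_of_low hE hF A hc

theorem upper_pow_three (a : Z3) : upper a ^ 3 = 1 := by
  revert a; decide

theorem lower_pow_three (a : Z3) : lower a ^ 3 = 1 := by
  revert a; decide

/-- Minus the identity. -/
def negI : SL23 := ⟨!![-1, 0; 0, -1], by decide⟩

/-- An element of order four. -/
def quarter : SL23 := ⟨!![0, 1; -1, 0], by decide⟩

theorem quarter_sq : quarter * quarter = negI := by decide

theorem negI_sq : negI * negI = 1 := by decide

theorem negI_ne : negI ≠ 1 := by decide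

theorem negI_comm (A : SL23) : A * negI = negI * A := by
  apply Subtype.ext
  rw [Matrix.SpecialLinearGroup.coe_mul, Matrix.SpecialLinearGroup.coe_mul]
  ext i j
  fin_cases i <;> fin_cases j <;> simp [negI, Matrix.mul_apply, Fin.sum_univ_two]

theorem aux_invol : ∀ a b c d : Z3, a * d - b * c = 1 → a * a + b * c = 1 → a * b + b * d = 0 →
    c * a + d * c = 0 → c * b + d * d = 1 →
    (a = 1 ∧ b = 0 ∧ c = 0 ∧ d = 1) ∨ (a = -1 ∧ b = 0 ∧ c = 0 ∧ d = -1) := by
  decide

theorem eq_negI_of_sq {A : SL23} (h : A * A = 1) (h1 : A ≠ 1) : A = negI := by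
  have hdet := A.2
  rw [Matrix.det_fin_two] at hdet
  have h' := congrArg (fun B : SL23 => (B : Matrix (Fin 2) (Fin 2) Z3)) h
  simp only [Matrix.SpecialLinearGroup.coe_mul, Matrix.SpecialLinearGroup.coe_one] at h'
  have e00 := congrFun (congrFun h' 0) 0
  have e01 := congrFun (congrFun h' 0) 1
  have e10 := congrFun (congrFun h' 1) 0
  have e11 := congrFun (congrFun h' 1) 1
  simp [Matrix.mul_apply, Fin.sum_univ_two] at e00 e01 e10 e11
  rcases aux_invol _ _ _ _ hdet e00 e01 e10 e11 with ⟨a1, b1, c1, d1⟩ | ⟨a1, b1, c1, d1⟩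
  · refine absurd (Subtype.ext ?_) h1
    ext i j
    fin_cases i <;> fin_cases j <;> simp [a1, b1, c1, d1]
  · apply Subtype.ext
    ext i j
    fin_cases i <;> fin_cases j <;> simp [negI, a1, b1, c1, d1]

end SLTwo

variable {X : Type*} [Group X] [Finite X]

/-- Coordinates: every element is uniquely `s v * z^k * h`, with an explicit multiplication rule. -/
structure Coords (X : Type*) [Group X] where
  /-- the coordinate map -/
  toX : (Fin 2 → Z3) → Z3 → SL23 → X
  bij : Function.Bijective fun p : (Fin 2 → Z3) × Z3 × SL23 => toX p.1 p.2.1 p.2.2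
  mul : ∀ v w k l A B, toX v k A * toX w l B =
    toX (v + (A : Matrix (Fin 2) (Fin 2) Z3).mulVec w)
      (k + l - (v 0 * (A : Matrix (Fin 2) (Fin 2) Z3).mulVec w 1 -
        v 1 * (A : Matrix (Fin 2) (Fin 2) Z3).mulVec w 0)) (A * B)

set_option maxHeartbeats 1600000 in
theorem exists_coords {R : Subgroup X} [hRn : R.Normal] (hR : Cfsg.IsExtraspecial 3 R)
    (hRcard : Nat.card R = 27) (hRexp : ∀ r ∈ R, r ^ 3 = 1)
    (hmax : ∀ N : Subgroup X, N.Normal → IsPGroup 3 N → N ≤ R)
    (e : X ⧸ R ≃* SL23)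
    (hO2 : ∀ t : X, t ^ 2 = 1 → (∀ x : X, x * t = t * x) → t = 1)
    {E : Subgroup X} (hEc : ∀ a ∈ E, ∀ b ∈ E, a * b = b * a) (hEexp : ∀ a ∈ E, a ^ 3 = 1)
    (hEcard : Nat.card E = 27) :
    Nonempty (Coords X) := by
  classical
  have : Fact (Nat.Prime 3) := ⟨Nat.prime_three⟩
  set π : X →* SL23 := e.toMonoidHom.comp (QuotientGroup.mk' R) with hπdef
  have hπs : Function.Surjective π := e.surjective.comp (QuotientGroup.mk'_surjective R)
  have hπk : ∀ x, π x = 1 ↔ x ∈ R := fun x => by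
    rw [hπdef, MonoidHom.comp_apply, MulEquiv.coe_toMonoidHom, map_eq_one_iff e e.injective,
      QuotientGroup.mk'_apply, QuotientGroup.eq_one_iff]
  have hπeq : ∀ x y, π x = π y → x⁻¹ * y ∈ R := fun x y h => by
    rw [← hπk, map_mul, map_inv, h, inv_mul_cancel]
  set Z : Subgroup X := (center R).map R.subtype with hZdef
  have hZR : Z ≤ R := map_subtype_le _
  have hZcard : Nat.card Z = 3 := by
    rw [hZdef, ← Nat.card_congr (equivMapOfInjective _ _ R.subtype_injective).toEquiv]
    exact hR.2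
  have hZmem : ∀ z, z ∈ Z ↔ z ∈ R ∧ ∀ r ∈ R, r * z = z * r := by
    intro z
    constructor
    · rintro ⟨w, hw, rfl⟩
      exact ⟨w.2, fun r hr => congrArg Subtype.val (mem_center_iff.mp hw ⟨r, hr⟩)⟩
    · rintro ⟨hz, hc⟩
      exact ⟨⟨z, hz⟩, mem_center_iff.mpr fun r => Subtype.ext (hc r r.2), rfl⟩
  have hZn : Z.Normal := by
    refine ⟨fun z hz x => ?_⟩
    rw [hZmem] at hz ⊢
    refine ⟨hRn.conj_mem _ hz.1 x, fun r hr => ?_⟩
    have h := hz.2 _ (by simpa using hRn.conj_mem _ hr x⁻¹ : x⁻¹ * r * x ∈ R)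
    calc r * (x * z * x⁻¹) = x * ((x⁻¹ * r * x) * z) * x⁻¹ := by group
      _ = x * (z * (x⁻¹ * r * x)) * x⁻¹ := by rw [h]
      _ = x * z * x⁻¹ * r := by group
  have hcomm : ∀ r ∈ R, ∀ s ∈ R, r * s * r⁻¹ * s⁻¹ ∈ Z := by
    intro r hr s hs
    have h : ⁅(⟨r, hr⟩ : R), (⟨s, hs⟩ : R)⁆ ∈ commutator R :=
      commutator_mem_commutator (mem_top _) (mem_top _)
    rw [hR.1.2.2] at h
    exact ⟨_, h, by simp [commutatorElement_def]⟩
  -- the involution and an element squaring to it
  obtain ⟨x1, hx1⟩ := hπs negI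
  obtain ⟨t, ht⟩ : ∃ y, y = x1 ^ 3 := ⟨_, rfl⟩
  have hπt : π t = negI := by rw [ht, map_pow, hx1, pow_succ, pow_two, negI_sq, one_mul]
  have ht2 : t * t = 1 := by
    rw [ht, ← pow_add, show 3 + 3 = 2 * 3 by norm_num, pow_mul]
    exact hRexp _ ((hπk _).mp (by rw [map_pow, hx1, pow_two, negI_sq]))
  have htinv : t⁻¹ = t := inv_eq_of_mul_eq_one_right ht2
  have httl : ∀ g : X, t * (t * g) = g := fun g => by rw [← mul_assoc, ht2, one_mul]
  have hliftR : ∀ x : X, ∃ s ∈ R, (s * x) * t = t * (s * x) := by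
    intro x
    obtain ⟨r, hr⟩ : ∃ y, y = t⁻¹ * (x * t * x⁻¹) := ⟨_, rfl⟩
    have hrR : r ∈ R := by
      rw [hr]
      refine hπeq _ _ ?_
      rw [map_mul, map_mul, map_inv, hπt, negI_comm, mul_inv_cancel_right]
    have h1 : t * r * t * r = 1 := by
      calc t * r * t * r = (x * t * x⁻¹) * (x * t * x⁻¹) := by rw [hr]; group
        _ = x * (t * t) * x⁻¹ := by group
        _ = 1 := by rw [ht2]; group
    have h2 : t * r * t = r⁻¹ := eq_inv_of_mul_eq_one_left h1
    have h3 : t * (r ^ 2)⁻¹ * t = r ^ 2 := by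
      have : t * r ^ 2 * t = (r ^ 2)⁻¹ := by
        calc t * r ^ 2 * t = (t * r * t) * (t * r * t) := by
              simp only [pow_two, mul_assoc, httl]
          _ = (r ^ 2)⁻¹ := by rw [h2, ← mul_inv_rev, ← pow_two]
      rw [← this]
      simp only [mul_assoc, httl, ht2, mul_one]
    refine ⟨r ^ 2, pow_mem hrR _, ?_⟩
    have h4 : (r ^ 2)⁻¹ * t * r ^ 2 = t * r := by
      calc (r ^ 2)⁻¹ * t * r ^ 2 = t * (t * (r ^ 2)⁻¹ * t) * r ^ 2 := by
            simp only [mul_assoc, httl]
        _ = t * (r ^ 2 * r ^ 2) := by rw [h3, mul_assoc]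
        _ = t * r := by rw [← pow_add, pow_succ, show (r ^ 3 : X) = 1 from hRexp r hrR, one_mul]
    have h5 : x * t * x⁻¹ = (r ^ 2)⁻¹ * t * r ^ 2 := by rw [h4, hr]; group
    calc r ^ 2 * x * t = r ^ 2 * (x * t * x⁻¹) * x := by group
      _ = t * (r ^ 2 * x) := by rw [h5]; group
  obtain ⟨q, hqt, hq2⟩ : ∃ q : X, q * t = t * q ∧ q * q = t := by
    obtain ⟨x, hx⟩ := hπs quarter
    obtain ⟨s, hs, hc⟩ := hliftR x
    obtain ⟨q0, hq0⟩ : ∃ y, y = s * x := ⟨_, rfl⟩
    have hπq : π q0 = quarter := by rw [hq0, map_mul, (hπk s).mpr hs, one_mul, hx]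
    obtain ⟨r0, hr0⟩ : ∃ y, y = t⁻¹ * (q0 * q0) := ⟨_, rfl⟩
    have hr0R : r0 ∈ R := by
      rw [hr0]
      refine hπeq _ _ ?_
      rw [map_mul, hπq, hπt, quarter_sq]
    have hq0t : Commute q0 t := by rw [hq0]; exact hc
    have hcr : Commute t r0 := by
      rw [hr0]
      refine Commute.mul_right ((Commute.refl t).inv_right) ?_
      exact hq0t.symm.mul_right hq0t.symm
    refine ⟨q0 ^ 3, (hq0t.pow_left 3).eq, ?_⟩
    have e1 : q0 * q0 = t * r0 := by rw [hr0, mul_inv_cancel_left]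
    rw [← pow_add, show 3 + 3 = 2 * 3 by norm_num, pow_mul, pow_two, e1, hcr.mul_pow,
      hRexp r0 hr0R, mul_one, pow_succ, pow_two, ht2, one_mul]
  -- the involution centralises Z, and nothing else in R
  have hzord : ∀ z ∈ Z, z ≠ 1 → ∀ w ∈ Z, ∃ i : Z3, w = pw z i := by
    intro z hz hz1 w hw
    have hm : (⟨w, hw⟩ : Z) ∈ zpowers (⟨z, hz⟩ : Z) :=
      mem_zpowers_of_prime_card hZcard (fun h => hz1 (Subtype.ext_iff.mp h))
    obtain ⟨n, hn⟩ := (isOfFinOrder_of_finite _).mem_zpowers_iff_mem_range_orderOf.mp hm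
      |> Finset.mem_image.mp
    exact ⟨(n : Z3), by rw [pw_natCast (hRexp z (hZR hz))]; exact (congrArg Subtype.val hn.2).symm⟩
  obtain ⟨z0, hz0, hz01⟩ : ∃ z ∈ Z, z ≠ 1 :=
    (bot_or_exists_ne_one Z).resolve_left fun h => by
      rw [h, card_bot] at hZcard; exact absurd hZcard (by norm_num)
  have hz0o := orderOf_eq_three (hRexp z0 (hZR hz0)) hz01
  have hinvcase : ∀ x : X, x * z0 * x⁻¹ = z0 ∨ x * z0 * x⁻¹ = z0⁻¹ := by
    intro x
    obtain ⟨i, hi⟩ := hzord z0 hz0 hz01 _ (hZn.conj_mem _ hz0 x)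
    rw [hi]
    fin_cases i
    · exfalso
      rw [show pw z0 ((⟨0, _⟩ : Fin 3) : Z3) = 1 from pw_zero z0] at hi
      exact hz01 (mul_left_cancel (a := x) (mul_right_cancel (b := x⁻¹) (hi.trans (by simp))))
    · exact Or.inl (pw_one z0)
    · refine Or.inr ?_
      change z0 ^ 2 = z0⁻¹
      exact eq_inv_of_mul_eq_one_left (by rw [← pow_succ]; exact hRexp z0 (hZR hz0))
  have hZcentral : ∀ (x : X), ∀ z ∈ Z, x * z = z * x := by
    have hsq : ∀ x : X, (x * x) * z0 * (x * x)⁻¹ = z0 := fun x => by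
      rw [show (x * x) * z0 * (x * x)⁻¹ = x * (x * z0 * x⁻¹) * x⁻¹ by group]
      rcases hinvcase x with h | h
      · rw [h, h]
      · rw [h, ← inv_inj, conj_inv, inv_inv, h]
    let C := centralizer ({z0} : Set X)
    have hRC : R ≤ C := fun r hr =>
      mem_centralizer_singleton_iff.mpr ((hZmem z0).mp hz0 |>.2 r hr)
    have hcube : ∀ x : X, π x ^ 3 = 1 → x ∈ C := by
      intro x hx
      rw [← map_pow, hπk] at hx
      have h3 := mem_centralizer_singleton_iff.mp (hRC hx)
      rw [mem_centralizer_singleton_iff]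
      have h2 := hsq x
      have h2' : x * x * z0 = z0 * (x * x) := mul_inv_eq_iff_eq_mul.mp h2
      rw [pow_succ, pow_two] at h3
      have : x * x * (x * z0) = x * x * (z0 * x) := by
        simp only [← mul_assoc] at h3 h2' ⊢
        rw [h3, h2']
      exact mul_left_cancel this
    have htop : C.map π = ⊤ := eq_top_of_unitriangular
      (fun a => by obtain ⟨x, hx⟩ := hπs (upper a)
                   exact ⟨x, hcube x (hx ▸ upper_pow_three a), hx⟩)
      (fun a => by obtain ⟨x, hx⟩ := hπs (lower a)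
                   exact ⟨x, hcube x (hx ▸ lower_pow_three a), hx⟩)
    intro x z hz
    have hx : x ∈ C := by
      obtain ⟨y, hy, hxy⟩ : π x ∈ C.map π := htop ▸ mem_top _
      have := mul_mem hy (hRC (hπeq _ _ hxy))
      rwa [mul_inv_cancel_left] at this
    obtain ⟨i, rfl⟩ := hzord z0 hz0 hz01 z hz
    exact (commute_pw (mem_centralizer_singleton_iff.mp hx).symm i).eq.symm
  have hzc : ∀ g : X, Commute z0 g := fun g => (hZcentral g z0 hz0).symm
  have hfixZ : ∀ r ∈ R, r * t = t * r → r ∈ Z := by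
    set A := R ⊓ centralizer ({t} : Set X) with hA
    have hAmem : ∀ r, r ∈ A ↔ r ∈ R ∧ r * t = t * r := fun r => by
      rw [hA, mem_inf, mem_centralizer_singleton_iff]
    have hZA : Z ≤ A := fun z hz => (hAmem z).mpr ⟨hZR hz, (hZcentral t z hz).symm⟩
    have hne : A ≠ R := by
      intro hAR
      have htc : ∀ x : X, x * t = t * x := by
        intro x
        obtain ⟨s, hs, hc⟩ := hliftR x
        have hst := ((hAmem s).mp (hAR ▸ hs)).2
        have : s * (x * t) = s * (t * x) := by rw [← mul_assoc, hc, ← mul_assoc, ← hst, mul_assoc]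
        exact mul_left_cancel this
      have h1 := hO2 t (by rw [pow_two, ht2]) htc
      exact negI_ne (by rw [← hπt, h1, map_one])
    have hA3 : Nat.card A = 3 := by
      have hdvd : Nat.card A ∣ 3 ^ 3 := by
        rw [show 3 ^ 3 = Nat.card R by rw [hRcard]; norm_num]
        exact card_dvd_of_le inf_le_left
      obtain ⟨k, hk, hk'⟩ := (Nat.dvd_prime_pow Nat.prime_three).mp hdvd
      have hge : 3 ≤ Nat.card A := hZcard ▸ Nat.le_of_dvd Nat.card_pos (card_dvd_of_le hZA)
      interval_cases k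
      · omega
      · simpa using hk'
      · exfalso
        set A' := A.subgroupOf R
        have hA'n : A'.Normal := by
          refine ⟨fun a ha r => ?_⟩
          rw [mem_subgroupOf] at ha ⊢
          have h := mul_mem (hZA (hcomm r r.2 a a.2)) ha
          rwa [inv_mul_cancel_right] at h
        have hidx : A'.index = 3 := by
          have h := card_mul_index A'
          rw [Nat.card_congr (subgroupOfEquivOfLe (inf_le_left : A ≤ R)).toEquiv, hk', hRcard] at h
          omega
        obtain ⟨r, hr, hrA⟩ := SetLike.exists_of_lt (lt_of_le_of_ne inf_le_left hne : A < R)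
        have hQ : Nat.card (R ⧸ A') = 3 := by rw [← hidx]; rfl
        have hgen : ∀ s : R, ∃ n : ℤ, ((⟨r, hr⟩ : R) : R ⧸ A') ^ n = (s : R ⧸ A') := fun s =>
          mem_zpowers_iff.mp (mem_zpowers_of_prime_card hQ (fun h => hrA
            ((mem_subgroupOf).mp ((QuotientGroup.eq_one_iff _).mp h))))
        let κ : R →* R := (MulAut.conjNormal (H := R) q).toMonoidHom
        have hκA : ∀ a ∈ A', κ a ∈ A' := by
          intro a ha
          rw [mem_subgroupOf, hAmem] at ha ⊢
          refine ⟨(κ a).2, ?_⟩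
          simp only [κ, MulEquiv.coe_toMonoidHom, MulAut.conjNormal_apply]
          calc q * (a : X) * q⁻¹ * t = q * ((a : X) * t) * q⁻¹ := by
                rw [mul_assoc _ q⁻¹, show q⁻¹ * t = t * q⁻¹ from
                  ((show Commute q t from hqt).inv_left).eq]; group
            _ = t * (q * (a : X) * q⁻¹) := by
                rw [ha.2, ← mul_assoc q t, hqt]; group
        let κ' : R ⧸ A' →* R ⧸ A' := QuotientGroup.map A' A' κ (fun a ha => hκA a ha)
        obtain ⟨i, hi⟩ := hgen (κ ⟨r, hr⟩)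
        have hk1 : κ' ((⟨r, hr⟩ : R) : R ⧸ A') = ((⟨r, hr⟩ : R) : R ⧸ A') ^ i := hi.symm
        have hk2 : κ' (κ' ((⟨r, hr⟩ : R) : R ⧸ A')) = ((⟨r, hr⟩ : R) : R ⧸ A') ^ (i * i) := by
          rw [hk1, map_zpow, hk1, ← zpow_mul]
        have hr1 : ((⟨r, hr⟩ : R) : R ⧸ A') ≠ 1 := fun h => hrA
          ((mem_subgroupOf).mp ((QuotientGroup.eq_one_iff _).mp h))
        have hro : orderOf ((⟨r, hr⟩ : R) : R ⧸ A') = 3 :=
          orderOf_eq_three (hQ ▸ pow_card_eq_one') hr1
        have hi1 : i * i % 3 = 1 := by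
          have hne0 : i % 3 ≠ 0 := by
            intro h0
            have : κ' ((⟨r, hr⟩ : R) : R ⧸ A') = 1 := by
              rw [hk1, ← zpow_mod_orderOf, hro, show (i % ((3 : ℕ) : ℤ)) = i % 3 from rfl, h0,
                zpow_zero]
            have hmem := (mem_subgroupOf).mp ((QuotientGroup.eq_one_iff _).mp
              (this : ((κ ⟨r, hr⟩ : R) : R ⧸ A') = 1))
            rw [hAmem] at hmem
            refine hrA ((hAmem r).mpr ⟨hr, ?_⟩)
            have hm := hmem.2
            simp only [κ, MulEquiv.coe_toMonoidHom, MulAut.conjNormal_apply] at hm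
            calc r * t = q⁻¹ * (q * r * q⁻¹ * (q * t * q⁻¹)) * q := by group
              _ = q⁻¹ * (q * r * q⁻¹ * t) * q := by rw [hqt, mul_inv_cancel_right]
              _ = q⁻¹ * (t * (q * r * q⁻¹)) * q := by rw [hm]
              _ = t * r := by
                rw [← mul_assoc q⁻¹ t, show q⁻¹ * t = t * q⁻¹ from
                  ((show Commute q t from hqt).inv_left).eq]; group
          rcases (show i % 3 = 1 ∨ i % 3 = 2 by omega) with h | h <;> simp [Int.mul_emod, h]
        rw [← zpow_mod_orderOf, hro, show (i * i % ((3 : ℕ) : ℤ)) = i * i % 3 from rfl, hi1,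
          zpow_one] at hk2
        have hfin : (⟨r, hr⟩ : R)⁻¹ * κ (κ ⟨r, hr⟩) ∈ A' := QuotientGroup.eq.mp hk2.symm
        rw [mem_subgroupOf, hAmem] at hfin
        have hval : ((⟨r, hr⟩ : R)⁻¹ * κ (κ ⟨r, hr⟩) : R).1 = r⁻¹ * (t * r * t) := by
          simp only [κ, Subgroup.coe_mul, Subgroup.coe_inv, MulEquiv.coe_toMonoidHom,
            MulAut.conjNormal_apply]
          rw [show q * (q * r * q⁻¹) * q⁻¹ = (q * q) * r * (q * q)⁻¹ by group, hq2, htinv]
        rw [hval] at hfin
        obtain ⟨a, ha⟩ : ∃ y, y = r⁻¹ * (t * r * t) := ⟨_, rfl⟩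
        rw [← ha] at hfin
        have hta : t * a * t = a := by rw [mul_assoc, hfin.2, httl]
        have htr : t * r * t = r * a := by rw [ha, mul_inv_cancel_left]
        have h3 : r = r * a * a := by
          calc r = t * (t * r * t) * t := by simp only [mul_assoc, httl, ht2, mul_one]
            _ = t * (r * a) * t := by rw [htr]
            _ = t * r * t * (t * a * t) := by simp only [mul_assoc, httl]
            _ = r * a * a := by rw [hta, htr]
        have ha2 : a * a = 1 := by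
          have : r * (a * a) = r * 1 := by rw [mul_one, ← mul_assoc, ← h3]
          exact mul_left_cancel this
        have ha1 : a = 1 := by
          calc a = a ^ 3 := by rw [pow_succ, pow_two, ha2, one_mul]
            _ = 1 := hRexp a hfin.1
        refine hrA ((hAmem r).mpr ⟨hr, ?_⟩)
        rw [ha1, mul_one] at htr
        conv_lhs => rw [← htr]
        simp only [mul_assoc, ht2, mul_one]
      · exact absurd (eq_of_le_of_card_ge inf_le_left (by rw [hk', hRcard]; norm_num)) hne
    intro r hr hc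
    rw [eq_of_le_of_card_ge hZA (by rw [hA3, hZcard])]
    exact (hAmem r).mpr ⟨hr, hc⟩
  -- representatives inverted by t
  have hinvZ : ∀ z ∈ Z, t * z * t = z⁻¹ → z = 1 := by
    intro z hz h
    rw [hZcentral t z hz, mul_assoc, ht2, mul_one] at h
    calc z = z ^ 3 * (z * z)⁻¹ := by group
      _ = 1 := by rw [hRexp z (hZR hz), one_mul]; rw [mul_inv_rev, ← h, ← pow_two,
        ← inv_inj, ← inv_pow, ← h, inv_one, pow_two]; exact mul_eq_one_iff_eq_inv.mpr h
  have hrep : ∀ r ∈ R, ∃ w ∈ Z, t * (r * w) * t = (r * w)⁻¹ := by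
    intro r hr
    obtain ⟨w, hw⟩ : ∃ y, y = t * r * t * r := ⟨_, rfl⟩
    have htrt : t * r * t ∈ R := by
      have := hRn.conj_mem r hr t
      rwa [htinv] at this
    have hwR : w ∈ R := hw ▸ mul_mem htrt hr
    have hwfix : t * w * t = r * w * r⁻¹ := by
      rw [hw]
      calc t * (t * r * t * r) * t = r * (t * r * t) := by simp only [mul_assoc, httl]
        _ = r * (t * r * t * r) * r⁻¹ := by group
    obtain ⟨c, hc⟩ : ∃ y, y = r * w * r⁻¹ * w⁻¹ := ⟨_, rfl⟩
    have hcZ : c ∈ Z := hc ▸ hcomm r hr w hwR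
    have hcw : t * w * t = c * w := by rw [hwfix, hc, inv_mul_cancel_right]
    have hc2 : c * c = 1 := by
      have h1 : t * (c * w) * t = w := by
        rw [← hcw]; simp only [mul_assoc, httl, ht2, mul_one]
      rw [← mul_assoc t, hZcentral t c hcZ, mul_assoc c, mul_assoc c, hcw, ← mul_assoc] at h1
      exact mul_eq_right.mp h1
    have hc1 : c = 1 := by
      calc c = c ^ 3 := by rw [pow_succ, pow_two, hc2, one_mul]
        _ = 1 := hRexp c (hZR hcZ)
    have hwZ : w ∈ Z := by
      refine hfixZ w hwR ?_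
      have := congrArg (t * ·) (hcw.trans (by rw [hc1, one_mul]))
      simp only [mul_assoc, httl] at this
      exact this
    refine ⟨w, hwZ, eq_inv_of_mul_eq_one_left ?_⟩
    have hcwz : ∀ g, g * w = w * g := fun g => hZcentral g w hwZ
    calc t * (r * w) * t * (r * w) = (t * r) * (w * t) * (r * w) := by group
      _ = (t * r) * (t * w) * (r * w) := by rw [← hcwz t]
      _ = t * r * t * (w * r) * w := by group
      _ = w * w * w := by rw [← hcwz r, hw]; group
      _ = 1 := by rw [← pow_two, ← pow_succ]; exact hRexp w hwR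
  -- two non-commuting inverted elements, one of them in E
  obtain ⟨e0, he0E, he0R⟩ : ∃ e0 ∈ E, e0 ∉ R := by
    by_contra hno
    push Not at hno
    have hER : E = R := eq_of_le_of_card_ge hno (by rw [hEcard, hRcard])
    have hall : Z = R := le_antisymm hZR fun r hr =>
      (hZmem r).mpr ⟨hr, fun s hs => hEc s (hER ▸ hs) r (hER ▸ hr)⟩
    rw [hall, hRcard] at hZcard
    exact absurd hZcard (by norm_num)
  obtain ⟨a0, ha0, ha0Z⟩ : ∃ a0 ∈ E ⊓ R, a0 ∉ Z := by
    by_contra hno
    push Not at hno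
    have h1 := card_mul_index ((E ⊓ R).subgroupOf E)
    have hfac : (E ⊓ R).subgroupOf E = (π.comp E.subtype).ker := by
      ext x
      rw [mem_subgroupOf, mem_inf, MonoidHom.mem_ker, MonoidHom.comp_apply, hπk]
      exact ⟨fun h => h.2, fun h => ⟨x.2, h⟩⟩
    have hidx : ((E ⊓ R).subgroupOf E).index ∣ 24 := by
      rw [hfac, index_ker]
      exact (card_subgroup_dvd_card _).trans (dvd_of_eq (by
        rw [Nat.card_eq_fintype_card]; decide))
    have hidx2 : ((E ⊓ R).subgroupOf E).index ∣ 27 := hEcard ▸ index_dvd_card _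
    have hidx3 : ((E ⊓ R).subgroupOf E).index ≤ 3 :=
      Nat.le_of_dvd (by norm_num) (Nat.dvd_gcd hidx hidx2)
    rw [Nat.card_congr (subgroupOfEquivOfLe (inf_le_left : E ⊓ R ≤ E)).toEquiv, hEcard] at h1
    have hle : Nat.card (E ⊓ R : Subgroup X) ≤ 3 :=
      hZcard ▸ Nat.le_of_dvd Nat.card_pos (card_dvd_of_le hno)
    nlinarith
  obtain ⟨wa, hwa, hainv⟩ := hrep a0 ha0.2
  obtain ⟨a, ha⟩ : ∃ y, y = a0 * wa := ⟨_, rfl⟩
  replace hainv : t * a * t = a⁻¹ := ha ▸ hainv
  have haR : a ∈ R := ha ▸ mul_mem ha0.2 (hZR hwa)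
  have haZ : a ∉ Z := fun h => ha0Z (by
    have := mul_mem h (inv_mem hwa)
    rwa [ha, mul_inv_cancel_right] at this)
  have hae0 : e0 * a = a * e0 := by
    rw [ha, ← mul_assoc, hEc e0 he0E a0 ha0.1, mul_assoc, hZcentral e0 wa hwa, mul_assoc]
  obtain ⟨b0, hb0, hab0⟩ : ∃ b0 ∈ R, a * b0 ≠ b0 * a := by
    by_contra hno
    push Not at hno
    exact haZ ((hZmem a).mpr ⟨haR, fun r hr => (hno r hr).symm⟩)
  obtain ⟨wb, hwb, hbinv⟩ := hrep b0 hb0
  obtain ⟨b, hb⟩ : ∃ y, y = b0 * wb := ⟨_, rfl⟩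
  replace hbinv : t * b * t = b⁻¹ := hb ▸ hbinv
  have hbR : b ∈ R := hb ▸ mul_mem hb0 (hZR hwb)
  have hab : a * b ≠ b * a := by
    intro h
    apply hab0
    rw [hb, ← mul_assoc, mul_assoc b0, ← hZcentral a wb hwb, ← mul_assoc b0] at h
    exact mul_right_cancel h
  obtain ⟨z, hz⟩ : ∃ y, y = a * b * a⁻¹ * b⁻¹ := ⟨_, rfl⟩
  have hzZ : z ∈ Z := hz ▸ hcomm a haR b hbR
  have hz1 : z ≠ 1 := by
    intro h
    rw [hz, mul_inv_eq_one, mul_inv_eq_iff_eq_mul] at h
    exact hab h
  have hzo := orderOf_eq_three (hRexp z (hZR hzZ)) hz1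
  have hzcc : ∀ g : X, Commute z g := fun g => (hZcentral g z hzZ).symm
  have ha3 := hRexp a haR
  have hb3 := hRexp b hbR
  have hz3 := hRexp z (hZR hzZ)
  have hba : b * a = a * b * z ^ 2 := by
    have e1 : a * b = z * (b * a) := by rw [hz]; group
    rw [e1, mul_assoc, ((hzcc (b * a)).pow_left 2).eq.symm, ← mul_assoc, ← pow_succ', hz3, one_mul]
  -- the section
  let s : (Fin 2 → Z3) → X := fun v => pw a (v 0) * pw b (v 1) * pw z (v 0 * v 1)
  have hsR : ∀ v, s v ∈ R := fun v =>
    mul_mem (mul_mem (pw_mem haR _) (pw_mem hbR _)) (pw_mem (hZR hzZ) _)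
  have hsw : ∀ p q : Z3, pw b p * pw a q = pw a q * pw b p * pw z (-(p * q)) :=
    fun p q => pw_swap hb3 hz3 hzcc hba ha3 p q
  have hpz : ∀ (i : Z3) (g : X), pw z i * g = g * pw z i := fun i g => (commute_pw (hzcc g) i).eq
  have hsmul : ∀ v w, s v * s w = s (v + w) * pw z (-(v 0 * w 1 - v 1 * w 0)) := by
    intro v w
    simp only [s, Pi.add_apply]
    calc pw a (v 0) * pw b (v 1) * pw z (v 0 * v 1) *
          (pw a (w 0) * pw b (w 1) * pw z (w 0 * w 1))
        = pw a (v 0) * (pw b (v 1) * pw a (w 0)) * pw b (w 1) *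
            (pw z (v 0 * v 1) * pw z (w 0 * w 1)) := by
          rw [mul_assoc (pw a (v 0) * pw b (v 1)), ← mul_assoc (pw z (v 0 * v 1)),
            hpz _ (pw a (w 0) * pw b (w 1))]
          simp only [mul_assoc]
      _ = pw a (v 0) * pw a (w 0) * (pw b (v 1) * pw b (w 1)) *
            (pw z (-(v 1 * w 0)) * (pw z (v 0 * v 1) * pw z (w 0 * w 1))) := by
          rw [hsw]
          simp only [mul_assoc]
          rw [← mul_assoc (pw z (-(v 1 * w 0))) (pw b (w 1)), hpz _ (pw b (w 1))]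
          simp only [mul_assoc]
      _ = pw a (v 0 + w 0) * pw b (v 1 + w 1) *
            (pw z ((v 0 + w 0) * (v 1 + w 1)) * pw z (-(v 0 * w 1 - v 1 * w 0))) := by
          rw [← pw_add ha3, ← pw_add hb3, ← pw_add hz3, ← pw_add hz3, ← pw_add hz3]
          congr 2
          generalize v 0 = i, v 1 = j, w 0 = k, w 1 = l
          revert i j k l
          decide
      _ = _ := by simp only [mul_assoc]
  have hpwinv : ∀ {g : X}, g ^ 3 = 1 → t * g * t = g⁻¹ → ∀ i : Z3,
      t * pw g i * t = pw g (-i) := by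
    intro g hg hi i
    rw [pw_neg hg]
    have e1 : (t * g * t) ^ i.val = t * g ^ i.val * t := by
      nth_rewrite 2 [← htinv]; nth_rewrite 4 [← htinv]; exact conj_pow
    rw [pw, ← e1, hi, inv_pow]
  have hzfix : ∀ i : Z3, t * pw z i * t = pw z i := fun i => by
    rw [mul_assoc, hpz, ← mul_assoc, ht2, one_mul]
  have hsinv : ∀ v, t * s v * t = (s v)⁻¹ := by
    intro v
    refine eq_inv_of_mul_eq_one_left ?_
    have h1 : t * s v * t = s (-v) := by
      simp only [s, Pi.neg_apply, neg_mul_neg]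
      rw [← hpwinv ha3 hainv, ← hpwinv hb3 hbinv, ← hzfix (v 0 * v 1)]
      simp only [mul_assoc, httl, ht2, mul_one]
      rw [← hpz _ t]
    rw [h1, hsmul]
    simp [s, pw_zero, mul_comm (v 1)]
  have hs0 : s 0 = 1 := by simp [s, pw_zero]
  have hsZ : ∀ v, s v ∈ Z → v = 0 := by
    intro v hv
    have h0 : v 0 = 0 := by
      by_contra hne
      have hzab : pw a (v 0) * pw b (v 1) ∈ Z := by
        have := mul_mem hv (inv_mem (pw_mem hzZ (v 0 * v 1)))
        rwa [mul_inv_cancel_right] at this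
      have hc : Commute (pw a (v 0)) b := by
        have h := hZcentral b _ hzab
        have hbb : Commute (pw b (v 1)) b := commute_pw (Commute.refl b) _
        have h' : pw a (v 0) * b * pw b (v 1) = b * pw a (v 0) * pw b (v 1) := by
          rw [mul_assoc, ← hbb.eq, ← mul_assoc, ← h, mul_assoc]
        exact mul_right_cancel h'
      have : Commute (pw (pw a (v 0)) (v 0)) b := commute_pw hc _
      rw [pw, pw, ← pow_mul, ← pw_natCast ha3, Nat.cast_mul, ZMod.natCast_zmod_val,
        show v 0 * v 0 = 1 from (by revert hne; generalize v 0 = i; revert i; decide), pw_one]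
        at this
      exact hab this.eq
    by_contra hne
    have h1 : v 1 ≠ 0 := fun h => hne (funext fun i => by fin_cases i <;> assumption)
    have hb' : pw b (v 1) ∈ Z := by
      have : s v = pw b (v 1) := by simp [s, h0, pw_zero]
      rwa [this] at hv
    have := pw_mem hb' (v 1)
    rw [pw, pw, ← pow_mul, ← pw_natCast hb3, Nat.cast_mul, ZMod.natCast_zmod_val,
      show v 1 * v 1 = 1 from (by revert h1; generalize v 1 = i; revert i; decide), pw_one] at this
    exact hab (hZcentral a b this)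
  have hdecomp : ∀ r ∈ R, ∃ v k, r = s v * pw z k := by
    let f : (Fin 2 → Z3) × Z3 → R := fun p =>
      ⟨s p.1 * pw z p.2, mul_mem (hsR _) (pw_mem (hZR hzZ) _)⟩
    have hf : Function.Injective f := by
      rintro ⟨v, k⟩ ⟨w, l⟩ h
      have h' : s v * pw z k = s w * pw z l := congrArg Subtype.val h
      have hvw : v = w := by
        have hd : s (-v) * s w ∈ Z := by
          have e1 : s (-v) * (s v * pw z k) = pw z (-(-v 0 * v 1 - -v 1 * v 0)) * pw z k := by
            rw [← mul_assoc, hsmul, neg_add_cancel, hs0, one_mul]; rfl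
          have e2 : s (-v) * s w = pw z (-(-v 0 * v 1 - -v 1 * v 0)) * pw z k * (pw z l)⁻¹ := by
            rw [← e1, h']; group
          rw [e2]
          exact mul_mem (mul_mem (pw_mem hzZ _) (pw_mem hzZ _)) (inv_mem (pw_mem hzZ _))
        rw [hsmul] at hd
        have := hsZ _ ((Subgroup.mul_mem_cancel_right Z (pw_mem hzZ _)).mp hd)
        exact (neg_add_eq_zero.mp this)
      subst hvw
      have hkl := mul_left_cancel h'
      have : k + -l = 0 := eq_zero_of_pw_eq_one hzo (by
        rw [pw_add hz3, pw_neg hz3, hkl, mul_inv_cancel])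
      exact Prod.ext rfl (by rwa [add_neg_eq_zero] at this)
    have hbij := hf.bijective_of_nat_card_le (by
      rw [hRcard, Nat.card_prod, Nat.card_fun, Nat.card_eq_fintype_card (α := Z3), ZMod.card,
        Nat.card_eq_fintype_card (α := Fin 2), Fintype.card_fin]; norm_num)
    intro r hr
    obtain ⟨⟨v, k⟩, h⟩ := hbij.2 ⟨r, hr⟩
    exact ⟨v, k, (congrArg Subtype.val h).symm⟩
  have hinvsec : ∀ r ∈ R, t * r * t = r⁻¹ → ∃ v, r = s v := by
    intro r hr hi
    obtain ⟨v, k, rfl⟩ := hdecomp r hr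
    have hk : pw z k = 1 := by
      refine hinvZ _ (pw_mem hzZ k) ?_
      have h2 : t * (s v * pw z k) * t = (t * s v * t) * (t * pw z k * t) := by
        simp only [mul_assoc, httl]
      rw [h2, hsinv, hzfix, mul_inv_rev (s v) (pw z k), ← pw_neg hz3 k, hpz (-k) (s v)⁻¹,
        pw_neg hz3] at hi
      exact (hzfix k).trans (mul_left_cancel hi)
    exact ⟨v, by rw [hk, mul_one]⟩
  -- an element of order three centralising t
  obtain ⟨g, hgt, hgR, hg3⟩ : ∃ g : X, g * t = t * g ∧ g ∉ R ∧ g ^ 3 = 1 := by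
    obtain ⟨u, hu, hc⟩ := hliftR e0
    refine ⟨u * e0, hc, fun h => he0R ?_, ?_⟩
    · have := mul_mem (inv_mem hu) h
      rwa [inv_mul_cancel_left] at this
    obtain ⟨g, hg⟩ : ∃ y, y = u * e0 := ⟨_, rfl⟩
    have hc1 : g * a * g⁻¹ = (u * a * u⁻¹ * a⁻¹) * a := by
      rw [hg, inv_mul_cancel_right, mul_inv_rev]
      calc u * e0 * a * (e0⁻¹ * u⁻¹) = u * (e0 * a) * e0⁻¹ * u⁻¹ := by group
        _ = u * a * u⁻¹ := by rw [hae0]; group
    obtain ⟨c, hcdef⟩ : ∃ y, y = u * a * u⁻¹ * a⁻¹ := ⟨_, rfl⟩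
    have hcZ : c ∈ Z := hcdef ▸ hcomm u hu a haR
    have hti : t * (g * a * g⁻¹) * t = (g * a * g⁻¹)⁻¹ := by
      have hgc : Commute t g := (show Commute g t from hg ▸ hc).symm
      calc t * (g * a * g⁻¹) * t = t * g * a * (g⁻¹ * t) := by group
        _ = g * t * a * (t * g⁻¹) := by rw [hgc.eq, ← hgc.inv_right.eq]
        _ = g * (t * a * t) * g⁻¹ := by group
        _ = g * a⁻¹ * g⁻¹ := by rw [hainv]
        _ = (g * a * g⁻¹)⁻¹ := by group
    rw [hc1, ← hcdef] at hti
    have hc10 : c = 1 := by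
      refine hinvZ c hcZ ?_
      have h2 : t * (c * a) * t = (t * c * t) * (t * a * t) := by simp only [mul_assoc, httl]
      rw [h2, hainv, mul_inv_rev, ← hZcentral a⁻¹ c⁻¹ (inv_mem hcZ) |>.symm] at hti
      exact mul_right_cancel hti
    have hua : Commute u a := by
      rw [hcdef, mul_inv_eq_one, mul_inv_eq_iff_eq_mul] at hc10
      exact hc10
    obtain ⟨v, k, huv⟩ := hdecomp u hu
    have hv1 : v 1 = 0 := by
      by_contra hne
      have h1 : pw b (v 1) * a = a * pw b (v 1) := by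
        have h2 := hua.eq
        rw [huv] at h2
        simp only [s] at h2
        have haa : Commute (pw a (v 0)) a := commute_pw (Commute.refl a) _
        have hza : Commute (pw z (v 0 * v 1) * pw z k) a :=
          (commute_pw (hzcc a) _).mul_left (commute_pw (hzcc a) _)
        rw [mul_assoc _ _ (pw z k), mul_assoc (pw a (v 0) * pw b (v 1)), hza.eq, ← mul_assoc,
          ← mul_assoc a] at h2
        have h3 := mul_right_cancel h2
        rw [← mul_assoc a, ← haa.eq, mul_assoc, mul_assoc] at h3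
        exact mul_left_cancel h3
      have h4 := hsw (v 1) 1
      rw [pw_one, h1, mul_one] at h4
      have h5 : pw z (-v 1) = 1 := mul_eq_left.mp h4.symm
      exact hne (neg_eq_zero.mp (eq_zero_of_pw_eq_one hzo h5))
    have hue0 : Commute u e0 := by
      rw [huv]
      simp only [s, hv1, pw_zero, mul_one, mul_zero]
      exact (commute_pw hae0.symm _).mul_left (commute_pw (hzcc e0) _)
    rw [hue0.mul_pow, hRexp u hu, hEexp e0 he0E, one_mul]
  -- a complement in the centraliser of t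
  set N := centralizer ({t} : Set X) with hN
  have hNmem : ∀ x, x ∈ N ↔ x * t = t * x := fun x => mem_centralizer_singleton_iff
  have hzN : z ∈ N := (hNmem z).mpr (hzcc t).eq
  let zN : N := ⟨z, hzN⟩
  let gN : N := ⟨g, (hNmem g).mpr hgt⟩
  have hzN3 : zN ^ 3 = 1 := Subtype.ext hz3
  have hgN3 : gN ^ 3 = 1 := Subtype.ext hg3
  have hzgN : Commute zN gN := Subtype.ext (hzcc g).eq
  let ι : Multiplicative (Z3 × Z3) →* N := MonoidHom.mk'
    (fun p => pw zN p.toAdd.1 * pw gN p.toAdd.2) fun p p' => by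
      simp only [toAdd_mul, Prod.fst_add, Prod.snd_add]
      rw [pw_add hzN3, pw_add hgN3, (show Commute (pw gN p.toAdd.2) (pw zN p'.toAdd.1) from
        (commute_pw (commute_pw hzgN _).symm _)).mul_mul_mul_comm]
  have hπz : π z = 1 := (hπk z).mpr (hZR hzZ)
  have hπgo : orderOf (π g) = 3 :=
    orderOf_eq_three (by rw [← map_pow, hg3, map_one]) (fun h => hgR ((hπk g).mp h))
  have hιi : Function.Injective ι := by
    rw [injective_iff_map_eq_one]
    intro p hp
    have hp' : pw z p.toAdd.1 * pw g p.toAdd.2 = 1 := congrArg Subtype.val hp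
    have h2 : pw (π g) p.toAdd.2 = 1 := by
      have := congrArg π hp'
      rw [map_mul, map_one, pw, pw, map_pow, map_pow, hπz, one_pow, one_mul] at this
      exact this
    have e2 := eq_zero_of_pw_eq_one hπgo h2
    rw [e2, pw_zero, mul_one] at hp'
    exact Multiplicative.toAdd.injective (Prod.ext (eq_zero_of_pw_eq_one hzo hp') e2)
  let fst' : Multiplicative (Z3 × Z3) →* Multiplicative Z3 :=
    (AddMonoidHom.fst Z3 Z3).toMultiplicative
  let φ : ι.range →* Multiplicative Z3 := fst'.comp (MonoidHom.ofInjective hιi).symm.toMonoidHom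
  set f := MonoidHom.transfer φ with hf
  have hfz : f zN = Multiplicative.ofAdd ((ι.range.index : ℕ) : Z3) := by
    rw [hf, MonoidHom.transfer_eq_pow φ zN (fun k g0 _ => ?_)]
    · have hval : (⟨zN ^ ι.range.index, MonoidHom.transfer_eq_pow_aux zN (fun k g0 _ => by
          rw [mul_assoc, (show Commute (zN ^ k) g0 from
            (show Commute zN g0 from Subtype.ext (hzcc g0).eq).pow_left k).eq,
            inv_mul_cancel_left])⟩ : ι.range) =
          MonoidHom.ofInjective hιi (Multiplicative.ofAdd (((ι.range.index : ℕ) : Z3), 0)) := by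
        apply Subtype.ext
        change zN ^ ι.range.index = pw zN _ * pw gN _
        simp only [toAdd_ofAdd, pw_zero, mul_one, pw_natCast hzN3]
      change fst' ((MonoidHom.ofInjective hιi).symm _) = _
      rw [hval, MulEquiv.symm_apply_apply]
      rfl
    · rw [mul_assoc, (show Commute (zN ^ k) g0 from
        (show Commute zN g0 from Subtype.ext (hzcc g0).eq).pow_left k).eq, inv_mul_cancel_left]
  have hidx : ((ι.range.index : ℕ) : Z3) = 2 := by
    have hπN : Function.Surjective (π.comp N.subtype) := fun A => by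
      obtain ⟨x, rfl⟩ := hπs A
      obtain ⟨u, hu, hc⟩ := hliftR x
      exact ⟨⟨u * x, (hNmem _).mpr hc⟩, by simp [(hπk u).mpr hu]⟩
    have hker : (π.comp N.subtype).ker = Z.subgroupOf N := by
      ext x
      rw [MonoidHom.mem_ker, MonoidHom.comp_apply, hπk, mem_subgroupOf]
      exact ⟨fun h => hfixZ _ h ((hNmem _).mp x.2), fun h => hZR h⟩
    have hZN : Z ≤ N := fun w hw => (hNmem w).mpr (hZcentral t w hw).symm
    have h1 := card_mul_index (π.comp N.subtype).ker
    rw [index_ker, MonoidHom.range_eq_top.mpr hπN, card_top, hker,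
      Nat.card_congr (subgroupOfEquivOfLe hZN).toEquiv, hZcard,
      show Nat.card SL23 = 24 by rw [Nat.card_eq_fintype_card]; decide] at h1
    have h2 := card_mul_index ι.range
    rw [← Nat.card_congr (MonoidHom.ofInjective hιi).toEquiv,
      show Nat.card (Multiplicative (Z3 × Z3)) = 9 by
        rw [Nat.card_eq_fintype_card]; decide, ← h1] at h2
    rw [show ι.range.index = 8 by omega]
    decide
  set H := f.ker.map N.subtype with hH
  have hHt : ∀ h ∈ H, h * t = t * h := by
    rintro _ ⟨n, -, rfl⟩; exact (hNmem _).mp n.2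
  have hHR : ∀ h ∈ H, h ∈ R → h = 1 := by
    rintro _ ⟨n, hn, rfl⟩ hR'
    obtain ⟨v, k, hk⟩ := hdecomp _ hR'
    have hnZ := hfixZ _ hR' ((hNmem _).mp n.2)
    rw [hk, Subgroup.mul_mem_cancel_right Z (pw_mem hzZ k)] at hnZ
    rw [hsZ v hnZ, hs0, one_mul] at hk
    have hn' : n = zN ^ k.val := Subtype.ext hk
    rw [SetLike.mem_coe, MonoidHom.mem_ker, hn', map_pow, hfz, hidx] at hn
    have hk0 : k = 0 := by
      have h := congrArg Multiplicative.toAdd hn
      rw [toAdd_pow, toAdd_ofAdd, toAdd_one, nsmul_eq_mul, ZMod.natCast_zmod_val] at h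
      exact (by decide : ∀ i : Z3, i * 2 = 0 → i = 0) k h
    change (n : X) = 1
    rw [show (n : X) = pw z k from hk, hk0, pw_zero]
  have hHs : ∀ A, ∃ h ∈ H, π h = A := by
    intro A
    obtain ⟨x, rfl⟩ := hπs A
    obtain ⟨u, hu, hc⟩ := hliftR x
    let n : N := ⟨u * x, (hNmem _).mpr hc⟩
    refine ⟨_, ⟨n * pw zN ((f n).toAdd), ?_, rfl⟩, ?_⟩
    · rw [SetLike.mem_coe, MonoidHom.mem_ker, map_mul, pw, map_pow, hfz, hidx]
      apply Multiplicative.toAdd.injective
      rw [toAdd_mul, toAdd_pow, toAdd_ofAdd, toAdd_one, nsmul_eq_mul, ZMod.natCast_zmod_val]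
      exact (by decide : ∀ i : Z3, i + i * 2 = 0) _
    · change π ((u * x) * pw z ((f n).toAdd)) = π x
      rw [map_mul, map_mul, (hπk u).mpr hu, one_mul, (hπk _).mpr (pw_mem (hZR hzZ) _), mul_one]
  have hHu : ∀ h ∈ H, ∀ h' ∈ H, π h = π h' → h = h' := fun h hh h' hh' he =>
    inv_mul_eq_one.mp (hHR _ (mul_mem (inv_mem hh) hh') (hπeq _ _ he))
  have hact : ∀ h ∈ H, ∀ v, ∃ w, h * s v * h⁻¹ = s w := by
    intro h hh v
    refine hinvsec _ (hRn.conj_mem _ (hsR v) h) ?_
    have hc : Commute t h := (show Commute h t from hHt h hh).symm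
    calc t * (h * s v * h⁻¹) * t = t * h * s v * (h⁻¹ * t) := by group
      _ = h * t * s v * (t * h⁻¹) := by rw [hc.eq, ← hc.inv_right.eq]
      _ = h * (t * s v * t) * h⁻¹ := by group
      _ = (h * s v * h⁻¹)⁻¹ := by rw [hsinv]; group
  have hsinj : ∀ v w, ∀ k l, s v * pw z k = s w * pw z l → v = w ∧ k = l := by
    intro v w k l h
    have hd : s (-w) * s v ∈ Z := by
      have e1 : s (-w) * s v = s (-w) * s w * pw z l * (pw z k)⁻¹ := by
        rw [mul_assoc (s (-w)) (s w), ← h]; group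
      rw [e1, hsmul, neg_add_cancel, hs0, one_mul]
      exact mul_mem (mul_mem (pw_mem hzZ _) (pw_mem hzZ _)) (inv_mem (pw_mem hzZ _))
    rw [hsmul, Subgroup.mul_mem_cancel_right Z (pw_mem hzZ _)] at hd
    have hvw : w = v := neg_add_eq_zero.mp (hsZ _ hd)
    subst hvw
    have hkl := mul_left_cancel h
    exact ⟨rfl, by
      rw [← add_neg_eq_zero]
      exact eq_zero_of_pw_eq_one hzo (by rw [pw_add hz3, pw_neg hz3, hkl, mul_inv_cancel])⟩
  choose act hact using hact
  have hadd : ∀ (h : X) (hh : h ∈ H) v w, act h hh (v + w) = act h hh v + act h hh w ∧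
      act h hh v 0 * act h hh w 1 - act h hh v 1 * act h hh w 0 = v 0 * w 1 - v 1 * w 0 := by
    intro h hh v w
    have e1 : (h * s v * h⁻¹) * (h * s w * h⁻¹) = h * (s v * s w) * h⁻¹ := by group
    rw [hsmul v w, hact h hh, hact h hh, hsmul, ← mul_assoc h, mul_assoc _ (pw z _) h⁻¹, hpz _ h⁻¹,
      ← mul_assoc, hact h hh] at e1
    obtain ⟨h1, h2⟩ := hsinj _ _ _ _ e1
    exact ⟨h1.symm, neg_injective h2⟩
  let mat : ∀ h ∈ H, Matrix (Fin 2) (Fin 2) Z3 := fun h hh =>
    !![act h hh ![1, 0] 0, act h hh ![0, 1] 0; act h hh ![1, 0] 1, act h hh ![0, 1] 1]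
  have hmat : ∀ (h : X) (hh : h ∈ H) v, act h hh v = (mat h hh).mulVec v := by
    intro h hh v
    let L : (Fin 2 → Z3) →+ (Fin 2 → Z3) :=
      AddMonoidHom.mk' (act h hh) fun x y => (hadd h hh x y).1
    have hv : v = (v 0).val • (![1, 0] : Fin 2 → Z3) + (v 1).val • ![0, 1] := by
      funext i; fin_cases i <;> simp
    change L v = _
    conv_lhs => rw [hv, map_add, map_nsmul, map_nsmul]
    funext i
    fin_cases i <;>
      simp [mat, L, Matrix.mulVec, dotProduct, Fin.sum_univ_two, ZMod.natCast_zmod_val,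
        -ZMod.natCast_val, mul_comm]
  have hdet : ∀ (h : X) (hh : h ∈ H), (mat h hh).det = 1 := by
    intro h hh
    rw [Matrix.det_fin_two]
    have h2 := (hadd h hh ![1, 0] ![0, 1]).2
    simp at h2
    simp [mat]
    linear_combination h2
  let ρ : H →* SL23 := MonoidHom.mk' (fun h => ⟨mat h.1 h.2, hdet h.1 h.2⟩) fun h k => by
    apply Subtype.ext
    change mat _ _ = mat _ _ * mat _ _
    refine Matrix.ext_of_mulVec_single fun i => ?_
    rw [← Matrix.mulVec_mulVec, ← hmat, ← hmat, ← hmat]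
    refine (hsinj _ _ 0 0 ?_).1
    rw [pw_zero, mul_one, mul_one, ← hact _ (h * k).2, ← hact _ h.2, ← hact _ k.2]
    simp only [Subgroup.coe_mul]; group
  have hρ : ∀ (h : H) v, (h : X) * s v * (h : X)⁻¹ =
      s ((ρ h : Matrix (Fin 2) (Fin 2) Z3).mulVec v) := fun h v => by
    rw [hact h.1 h.2 v, hmat]; rfl
  have hρi : Function.Injective ρ := by
    rw [injective_iff_map_eq_one]
    intro h hh1
    set K := H ⊓ centralizer (R : Set X) with hK
    have hhK : (h : X) ∈ K := by
      refine ⟨h.2, mem_centralizer_iff.mpr fun r hr => ?_⟩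
      obtain ⟨v, k, rfl⟩ := hdecomp r hr
      have e1 : Commute (s v) (h : X) := by
        have h1 := hρ h v
        rw [hh1, Matrix.SpecialLinearGroup.coe_one, Matrix.one_mulVec,
          mul_inv_eq_iff_eq_mul] at h1
        exact h1.symm
      exact (e1.mul_left (commute_pw (hzcc _) k)).eq
    have hKn : K.Normal := by
      refine ⟨fun x hx u => ?_⟩
      obtain ⟨h', hh', hπh'⟩ := hHs (π u)
      have hr : h'⁻¹ * u ∈ R := hπeq _ _ hπh'
      have hu : u * x * u⁻¹ = h' * x * h'⁻¹ := by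
        have hc := mem_centralizer_iff.mp hx.2 _ hr
        calc u * x * u⁻¹ = h' * ((h'⁻¹ * u) * x) * u⁻¹ := by group
          _ = h' * (x * (h'⁻¹ * u)) * u⁻¹ := by rw [hc]
          _ = h' * x * h'⁻¹ := by group
      rw [hu]
      refine ⟨mul_mem (mul_mem hh' hx.1) (H.inv_mem hh'), mem_centralizer_iff.mpr fun r hr => ?_⟩
      have h2 := mem_centralizer_iff.mp hx.2 (h'⁻¹ * r * h')
        (by simpa using hRn.conj_mem r hr h'⁻¹)
      calc r * (h' * x * h'⁻¹) = h' * ((h'⁻¹ * r * h') * x) * h'⁻¹ := by group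
        _ = h' * (x * (h'⁻¹ * r * h')) * h'⁻¹ := by rw [h2]
        _ = h' * x * h'⁻¹ * r := by group
    have hKodd : ¬ 2 ∣ Nat.card K := by
      intro h2
      have : Fact (Nat.Prime 2) := ⟨Nat.prime_two⟩
      obtain ⟨u, hu⟩ := exists_prime_orderOf_dvd_card' 2 h2
      rw [← orderOf_coe] at hu
      have hu2 : (u : X) * u = 1 := by rw [← pow_two, ← hu, pow_orderOf_eq_one]
      have hu1 : π (u : X) ≠ 1 := fun h1 => by
        rw [hHR _ u.2.1 ((hπk _).mp h1), orderOf_one] at hu
        exact absurd hu (by norm_num)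
      have hπu := eq_negI_of_sq (by rw [← map_mul, hu2, map_one]) hu1
      have hr : t⁻¹ * (u : X) ∈ R := hπeq _ _ (hπt.trans hπu.symm)
      have hrt : (t⁻¹ * (u : X)) * t = t * (t⁻¹ * (u : X)) := by
        rw [htinv, mul_assoc, hHt _ u.2.1]
      have hrZ := hfixZ _ hr hrt
      have hcentral : ∀ r ∈ R, r * t = t * r := by
        intro r hr'
        have h3 := mem_centralizer_iff.mp u.2.2 r hr'
        have h4 : (u : X) = t * (t⁻¹ * u) := (mul_inv_cancel_left _ _).symm
        obtain ⟨y, hy⟩ : ∃ y, t⁻¹ * (u : X) = y := ⟨_, rfl⟩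
        rw [hy] at h4
        have hyZ : y ∈ Z := hy ▸ hrZ
        rw [h4, ← mul_assoc, mul_assoc t, ← hZcentral r y hyZ, ← mul_assoc] at h3
        exact mul_right_cancel h3
      exact hab (((hZmem b).mp (hfixZ b hbR (hcentral b hbR))).2 a haR)
    have hK3 : IsPGroup 3 K := by
      let πK : K →* SL23 := π.comp K.subtype
      have hi : Function.Injective πK := fun x y hxy =>
        Subtype.ext (hHu _ x.2.1 _ y.2.1 hxy)
      have hd : Nat.card K ∣ 2 ^ 3 * 3 := (card_dvd_of_injective _ hi).trans (dvd_of_eq (by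
        rw [Nat.card_eq_fintype_card]; decide))
      have hd3 : Nat.card K ∣ 3 := by
        refine Nat.Coprime.dvd_of_dvd_mul_left ?_ hd
        exact Nat.Coprime.pow_right 3 ((Nat.prime_two.coprime_iff_not_dvd.mpr hKodd).symm)
      rcases (Nat.dvd_prime Nat.prime_three).mp hd3 with h3 | h3
      · exact IsPGroup.of_card (n := 0) (by rw [h3, pow_zero])
      · exact IsPGroup.of_card (n := 1) (by rw [h3, pow_one])
    exact Subtype.ext (hHR _ h.2 (hmax K hKn hK3 hhK))
  have hπH : Function.Bijective (π.comp H.subtype) :=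
    ⟨fun x y h => Subtype.ext (hHu _ x.2 _ y.2 h),
      fun A => by obtain ⟨h, hh, he⟩ := hHs A; exact ⟨⟨h, hh⟩, he⟩⟩
  have hρb : Function.Bijective ρ := hρi.bijective_of_nat_card_le
    (le_of_eq (Nat.card_eq_of_bijective _ hπH).symm)
  let τ := MulEquiv.ofBijective ρ hρb
  refine ⟨⟨fun v k A => s v * pw z k * (τ.symm A : X), ?_, ?_⟩⟩
  · constructor
    · rintro ⟨v, k, A⟩ ⟨w, l, B⟩ h
      have h' : s v * pw z k * (τ.symm A : X) = s w * pw z l * (τ.symm B : X) := h
      have hπAB := congrArg π h'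
      rw [map_mul, map_mul π (s w * pw z l),
        (hπk _).mpr (mul_mem (hsR v) (pw_mem (hZR hzZ) k)),
        (hπk _).mpr (mul_mem (hsR w) (pw_mem (hZR hzZ) l)), one_mul, one_mul] at hπAB
      have hAB : τ.symm A = τ.symm B := hπH.1 hπAB
      rw [hAB] at h'
      obtain ⟨h1, h2⟩ := hsinj _ _ _ _ (mul_right_cancel h')
      rw [h1, h2, τ.symm.injective hAB]
    · intro x
      obtain ⟨⟨h, hh⟩, he⟩ := hπH.2 (π x)
      have hr : x * h⁻¹ ∈ R := by rw [← hπk, map_mul, map_inv]; exact mul_inv_eq_one.mpr he.symm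
      obtain ⟨v, k, hvk⟩ := hdecomp _ hr
      refine ⟨⟨v, k, τ ⟨h, hh⟩⟩, ?_⟩
      change s v * pw z k * (τ.symm (τ ⟨h, hh⟩) : X) = x
      rw [MulEquiv.symm_apply_apply, ← hvk, inv_mul_cancel_right]
  · intro v w k l A B
    have hA : ρ (τ.symm A) = A := τ.apply_symm_apply A
    have hc := hρ (τ.symm A) w
    rw [hA, mul_inv_eq_iff_eq_mul] at hc
    set u := (A : Matrix (Fin 2) (Fin 2) Z3).mulVec w
    change _ = s (v + u) * pw z (k + l - (v 0 * u 1 - v 1 * u 0)) * (τ.symm (A * B) : X)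
    rw [map_mul, Subgroup.coe_mul, sub_eq_add_neg, pw_add hz3, pw_add hz3]
    calc s v * pw z k * (τ.symm A : X) * (s w * pw z l * (τ.symm B : X))
        = s v * (pw z k * ((τ.symm A : X) * s w)) * pw z l * (τ.symm B : X) := by group
      _ = s v * (s u * (τ.symm A : X)) * pw z k * pw z l * (τ.symm B : X) := by
          rw [hc, hpz k]; group
      _ = s v * s u * ((τ.symm A : X) * (pw z k * pw z l)) * (τ.symm B : X) := by group
      _ = s v * s u * (pw z k * pw z l) * ((τ.symm A : X) * (τ.symm B : X)) := by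
          rw [← pw_add hz3, ← hpz (k + l) (τ.symm A : X)]; group
      _ = _ := by
          rw [hsmul]
          set m := pw z (-(v 0 * u 1 - v 1 * u 0))
          rw [mul_assoc (s (v + u)), show m * (pw z k * pw z l) = pw z k * pw z l * m from
            hpz _ _]

end Cfsg.Agent.Recog.Heis
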