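import Cfsg.Agent.Recog.HuppertMain
import Cfsg.Agent.H4.QuaternionSection

/-!
# Solvable groups regular on the non-zero vectors
-/

namespace Cfsg.Agent.Recog.TransLin

set_option linter.style.haveILetI false

/-- A group mapping onto a cyclic group of even order has a normal subgroup of index two. -/
theorem exists_index_two_of_hom {G C : Type*} [Group G] [Group C] [Finite C] [IsCyclic C]
    {f : G →* C} (hf : Function.Surjective f) (h2 : 2 ∣ Nat.card C) :
    ∃ N : Subgroup G, N.Normal ∧ N.index = 2 := by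
  obtain ⟨g, hg⟩ := IsCyclic.exists_generator (α := C)
  have hgo : orderOf g = Nat.card C := orderOf_eq_card_of_forall_mem_zpowers hg
  have hS : (Subgroup.zpowers (g ^ 2)).index = 2 := by
    have h := (Subgroup.zpowers (g ^ 2)).card_mul_index
    rw [Nat.card_zpowers, orderOf_pow' g two_ne_zero, hgo, Nat.gcd_eq_right h2] at h
    obtain ⟨k, hk⟩ := h2
    have hk0 : 0 < k := by have := Nat.card_pos (α := C); omega
    rw [hk, Nat.mul_div_cancel_left _ two_pos] at h
    exact Nat.eq_of_mul_eq_mul_left hk0 (by linarith)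
  refine ⟨(Subgroup.zpowers (g ^ 2)).comap f, ?_, by rw [Subgroup.index_comap_of_surjective _ hf, hS]⟩
  have : (Subgroup.zpowers (g ^ 2)).Normal := ⟨fun a ha x => by
    obtain ⟨i, rfl⟩ := Subgroup.mem_zpowers_iff.mp (hg x)
    obtain ⟨j, rfl⟩ := Subgroup.mem_zpowers_iff.mp ha
    rw [((((Commute.refl g).pow_right 2).zpow_right j).zpow_left i).eq, mul_inv_cancel_right]
    exact ha⟩
  exact Subgroup.Normal.comap this f

/-- A group of order 24 with a normal quaternion-like subgroup of order eight and an element of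
order three acting non-trivially on it is SL(2,3). -/
theorem nonempty_equiv_sl_two_three {G : Type*} [Group G] [Finite G] (hcard : Nat.card G = 24)
    {Q : Subgroup G} (hQn : Q.Normal) (hQ : IsPGroup 2 Q)
    (huniq : ∀ x ∈ Q, ∀ y ∈ Q, orderOf x = 2 → orderOf y = 2 → x = y) {g : G}
    (hgo : orderOf g = 3) (hgc : g ∉ Subgroup.centralizer (Q : Set G)) :
    Nonempty (G ≃* Matrix.SpecialLinearGroup (Fin 2) (ZMod 3)) := by
  have hg : g ∈ Subgroup.normalizer (Q : Set G) := by
    rw [Subgroup.normalizer_eq_top_iff.mpr hQn]; exact Subgroup.mem_top g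
  have hcop : Nat.Coprime (orderOf g) 2 := by rw [hgo]; norm_num
  obtain ⟨e⟩ := H4.equiv_quaternion_two hQ huniq hg hcop hgc
  obtain ⟨H, K, hK, ⟨iso⟩⟩ := H4.exists_section_of_quaternion e hg hcop hgc
  have : Fact (Nat.Prime 3) := ⟨Nat.prime_three⟩
  have h24 : Nat.card (H ⧸ K.subgroupOf H) = 24 := by
    rw [Nat.card_congr iso.toEquiv, Cfsg.Agent.Linear.card_SL_two, ZMod.card]
  have h1 := (K.subgroupOf H).card_mul_index
  rw [Subgroup.index_eq_card, h24] at h1
  have h2 : Nat.card H ≤ 24 := hcard ▸ Nat.card_le_card_of_injective _ H.subtype_injective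
  have h3 : Nat.card (K.subgroupOf H) = 1 := by
    have := Nat.card_pos (α := K.subgroupOf H)
    nlinarith
  have hKbot : K.subgroupOf H = ⊥ := Subgroup.eq_bot_of_card_eq _ h3
  have hH : H = ⊤ := Subgroup.eq_top_of_card_eq _ (by rw [hcard, ← h1, h3, one_mul])
  exact ⟨((Subgroup.topEquiv.symm.trans (MulEquiv.subgroupCongr hH.symm)).trans
    ((QuotientGroup.quotientBot).symm.trans (QuotientGroup.quotientMulEquivOfEq hKbot.symm))).trans iso⟩

variable {p : ℕ} [Fact p.Prime] {V : Type*} [AddCommGroup V] [Module (ZMod p) V] [Finite V]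
  [Nontrivial V] {G : Type*} [Group G] [Finite G] {ρ : G →* (V ≃ₗ[ZMod p] V)}

/-- Conjugation on the span of an abelian normal subgroup. -/
theorem exists_conjAut (htr : IsTrans ρ) (hρ : Function.Injective ρ) {A : Subgroup G}
    (hAn : A.Normal) (hA : ∀ a ∈ A, ∀ b ∈ A, a * b = b * a) :
    ∃ ψ : G →* (spanOp ρ A ≃ₐ[ZMod p] spanOp ρ A),
      ψ.ker ≤ Subgroup.centralizer (A : Set G) ∧ IsCyclic ψ.range := by
  letI : Field (spanOp ρ A) := (span_isField htr hAn hA).toField
  let ψ : G →* (spanOp ρ A ≃ₐ[ZMod p] spanOp ρ A) :=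
    { toFun := fun g => AlgEquiv.ofBijective
        ({ toFun := fun k => ⟨op ρ g * k * op ρ g⁻¹, conj_mem_span ρ (fun a ha => hAn.conj_mem a ha g) k.2⟩
           map_one' := Subtype.ext (by show op ρ g * 1 * op ρ g⁻¹ = 1; rw [mul_one, op_mul_inv])
           map_zero' := Subtype.ext (by show op ρ g * 0 * op ρ g⁻¹ = 0; rw [mul_zero, zero_mul])
           map_mul' := fun a b => Subtype.ext (by
             show op ρ g * ((a : Module.End (ZMod p) V) * b) * op ρ g⁻¹ = _
             show _ = op ρ g * a * op ρ g⁻¹ * (op ρ g * b * op ρ g⁻¹)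
             rw [mul_assoc (op ρ g * a) (op ρ g⁻¹), ← mul_assoc (op ρ g⁻¹), ← mul_assoc (op ρ g⁻¹) (op ρ g),
               op_inv_mul, one_mul]
             simp [mul_assoc])
           map_add' := fun a b => Subtype.ext (by
             show op ρ g * ((a : Module.End (ZMod p) V) + b) * op ρ g⁻¹ = _
             rw [mul_add, add_mul]; rfl)
           commutes' := fun k => Subtype.ext (by
             show op ρ g * algebraMap (ZMod p) (Module.End (ZMod p) V) k * op ρ g⁻¹ = _
             rw [← Algebra.commutes k (op ρ g), mul_assoc, op_mul_inv, mul_one]; rfl) } :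
          spanOp ρ A →ₐ[ZMod p] spanOp ρ A)
        (Finite.injective_iff_bijective.mp (RingHom.injective _))
      map_one' := AlgEquiv.ext fun k => Subtype.ext (by
        show op ρ 1 * k * op ρ 1⁻¹ = k
        rw [inv_one, map_one, one_mul, mul_one])
      map_mul' := fun g h => AlgEquiv.ext fun k => Subtype.ext (by
        show op ρ (g * h) * k * op ρ (g * h)⁻¹ = op ρ g * (op ρ h * k * op ρ h⁻¹) * op ρ g⁻¹
        rw [mul_inv_rev, map_mul, map_mul]; simp [mul_assoc]) }
  refine ⟨ψ, fun g hg => Subgroup.mem_centralizer_iff.mpr fun a ha => op_injective ρ hρ ?_,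
    Subgroup.isCyclic _⟩
  have h := congrArg (fun σ : spanOp ρ A ≃ₐ[ZMod p] spanOp ρ A =>
    ((σ ⟨op ρ a, op_mem_span ρ ha⟩ : spanOp ρ A) : Module.End (ZMod p) V)) (MonoidHom.mem_ker.mp hg)
  have h' : op ρ g * op ρ a * op ρ g⁻¹ = op ρ a := h
  rw [map_mul, map_mul]
  calc op ρ a * op ρ g = op ρ g * op ρ a * op ρ g⁻¹ * op ρ g := by rw [h']
    _ = op ρ g * op ρ a := by rw [mul_assoc, op_inv_mul, mul_one]

omit [Nontrivial V] in
/-- An element centralising an abelian normal subgroup spanning a field as large as the space lies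
in that field. -/
theorem centralizer_comm_of_card [Nontrivial V] (hρ : Function.Injective ρ) (htr : IsTrans ρ) {A : Subgroup G}
    (hAn : A.Normal) (hA : ∀ a ∈ A, ∀ b ∈ A, a * b = b * a)
    (hc : Nat.card (spanOp ρ A) = Nat.card V) :
    ∀ g ∈ Subgroup.centralizer (A : Set G), ∀ h ∈ Subgroup.centralizer (A : Set G), g * h = h * g := by
  obtain ⟨v₀, hv₀⟩ := exists_ne (0 : V)
  have hbij : Function.Bijective (fun k : spanOp ρ A => (k : Module.End (ZMod p) V) v₀) :=
    (span_eval_injective htr hAn hA hv₀).bijective_of_nat_card_le hc.ge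
  have key : ∀ g ∈ Subgroup.centralizer (A : Set G), op ρ g ∈ spanOp ρ A := by
    intro g hg
    obtain ⟨k, hk⟩ := hbij.2 (op ρ g v₀)
    have : op ρ g = k := LinearMap.ext fun w => by
      obtain ⟨l, rfl⟩ := hbij.2 w
      show (op ρ g * (l : Module.End (ZMod p) V)) v₀ = ((k : Module.End (ZMod p) V) * l) v₀
      rw [commute_span ρ (fun a ha => (Subgroup.mem_centralizer_iff.mp hg a ha).symm) l.2,
        span_comm ρ hA k.2 l.2, Module.End.mul_apply, Module.End.mul_apply]
      exact congrArg _ hk.symm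
    exact this ▸ k.2
  exact fun g hg h hh => op_injective ρ hρ (by
    rw [map_mul, map_mul]; exact span_comm ρ hA (key g hg) (key h hh))

variable (hρ : Function.Injective ρ) (htr : IsTrans ρ)
  (hreg : ∀ v : V, v ≠ 0 → ∀ g : G, ρ g v = v → g = 1)

omit [Nontrivial V] [Finite G] in
include hreg in
/-- In a regular group of odd characteristic there is at most one involution. -/
theorem involution_unique [Nontrivial V] (hρ : Function.Injective ρ) :
    ∀ x y : G, orderOf x = 2 → orderOf y = 2 → x = y := by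
  have key : ∀ x : G, orderOf x = 2 → ∀ v : V, ρ x v = -v := by
    intro x hx v
    by_contra hne
    have h2 : ρ x (v + ρ x v) = v + ρ x v := by
      rw [map_add, ← LinearEquiv.mul_apply (ρ x) (ρ x), ← map_mul, ← sq, ← hx, pow_orderOf_eq_one,
        map_one, LinearEquiv.coe_one, id, add_comm]
    have h3 : v + ρ x v ≠ 0 := fun h => hne (eq_neg_of_add_eq_zero_right h)
    have := hreg _ h3 x h2
    rw [this, orderOf_one] at hx
    norm_num at hx
  intro x y hx hy
  exact hρ (LinearEquiv.ext fun v => (key x hx v).trans (key y hy v).symm)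

include htr hreg in
/-- A regular group has as many elements as there are non-zero vectors. -/
theorem card_eq_of_regular : Nat.card G = Nat.card V - 1 := by
  classical
  obtain ⟨v₀, hv₀⟩ := exists_ne (0 : V)
  let f : G → {v : V // v ≠ 0} := fun g => ⟨ρ g v₀, fun h => hv₀ ((ρ g).map_eq_zero_iff.mp h)⟩
  have hinj : Function.Injective f := by
    intro a b hab
    have h : ρ (b⁻¹ * a) v₀ = v₀ := by
      rw [map_mul, LinearEquiv.mul_apply, show ρ a v₀ = ρ b v₀ from congrArg Subtype.val hab,
        ← LinearEquiv.mul_apply, ← map_mul, inv_mul_cancel, map_one]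
      rfl
    exact (inv_mul_eq_one.mp (hreg v₀ hv₀ _ h)).symm
  have hsurj : Function.Surjective f := fun v =>
    (htr v₀ v.1 hv₀ v.2).imp fun g hg => Subtype.ext hg
  have : Fintype V := Fintype.ofFinite V
  rw [Nat.card_eq_of_bijective f ⟨hinj, hsurj⟩, Nat.card_eq_fintype_card, Nat.card_eq_fintype_card,
    Fintype.card_subtype_compl, Fintype.card_subtype_eq]

include hρ htr hreg

/-- A regular group: semilinear, or one of four degrees. -/
theorem regular_dichotomy (hsol : Group.IsSolvable G) :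
    IsGood ρ ∨ (p ≠ 2 ∧ Nat.card V = p ^ 2 ∧ ¬ IsGood ρ ∧
      (p = 5 ∨ p = 7 ∨ p = 11 ∨ p = 23)) := by
  rcases huppert hsol hρ htr with h | ⟨h, h32⟩ | ⟨hp2, hV, hd, hng⟩
  · exact Or.inl h
  · rw [card_eq_of_regular htr hreg, h] at h32
    norm_num at h32
  · refine Or.inr ⟨hp2, hV, hng, ?_⟩
    have hp : p.Prime := Fact.out
    have hle : p ≤ 23 := by have := Nat.le_of_dvd (by norm_num) hd; omega
    have h3 : p ≠ 3 := by
      rintro rfl
      obtain ⟨-, hF, h2, -, -, h1, -⟩ := dim_two hsol hρ htr hp2 hV hng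
      have h := (Cfsg.fittingSubgroup G).card_mul_index
      rw [hF, card_eq_of_regular htr hreg, hV] at h
      norm_num at h
      have hi : 2 ≤ (Cfsg.fittingSubgroup G).index := by
        have := Subgroup.index_ne_zero_of_finite (H := Cfsg.fittingSubgroup G); omega
      have hz : 2 ≤ Nat.card (Subgroup.center G) := Nat.le_of_dvd Nat.card_pos h2
      nlinarith
    interval_cases p <;> simp_all (config := { decide := true })

/-- In odd characteristic a regular group in the semilinear group has a subgroup of index two. -/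
theorem index_two_of_good (hp2 : p ≠ 2) (hg : IsGood ρ) :
    ∃ N : Subgroup G, N.Normal ∧ N.index = 2 := by
  obtain ⟨B, hBn, hB, hc⟩ := hg
  obtain ⟨ψ, hker, hcyc⟩ := exists_conjAut htr hρ hBn hB
  have := hcyc
  have : Finite ψ.range := Finite.of_surjective _ ψ.rangeRestrict_surjective
  by_cases h2 : 2 ∣ Nat.card ψ.range
  · exact exists_index_two_of_hom ψ.rangeRestrict_surjective h2
  have hG : 2 ∣ Nat.card G := by
    obtain ⟨n, hn⟩ := exists_card_eq_pow (p := p) (V := V)
    rw [card_eq_of_regular htr hreg, hn]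
    have hpo : Odd p := (Fact.out : p.Prime).odd_of_ne_two hp2
    obtain ⟨k, hk⟩ := hpo.pow (n := n)
    exact ⟨k, by omega⟩
  have : Fact (Nat.Prime 2) := ⟨Nat.prime_two⟩
  set P : Sylow 2 G := default
  have hPker : (P : Subgroup G) ≤ ψ.ker := by
    intro x hx
    rw [MonoidHom.mem_ker, ← orderOf_eq_one_iff]
    obtain ⟨k, hk⟩ := IsPGroup.iff_orderOf.mp P.isPGroup' ⟨x, hx⟩
    rw [Subgroup.orderOf_mk] at hk
    refine Nat.eq_one_of_dvd_coprimes ((Nat.prime_two.coprime_iff_not_dvd.mpr h2).pow_left k)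
      (hk ▸ orderOf_map_dvd ψ x) ?_
    rw [← Subgroup.orderOf_mk (H := ψ.range) (ψ x) ⟨x, rfl⟩]
    exact orderOf_dvd_natCard _
  set H := Subgroup.centralizer (B : Set G)
  have hHn : H.Normal := by have := hBn; exact Subgroup.normal_centralizer
  have hHc : IsCyclic H :=
    isCyclic_of_normal htr hHn (centralizer_comm_of_card hρ htr hBn hB hc) hρ
  have hPc : IsCyclic (P : Subgroup G) := isCyclic_of_injective
    (Subgroup.inclusion (hPker.trans hker)) (Subgroup.inclusion_injective _)
  have hmin : (Nat.card G).minFac = 2 := (Nat.minFac_eq_two_iff _).mpr hG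
  have hc' := IsCyclic.isComplement' hmin hPc
  refine exists_index_two_of_hom (f := MonoidHom.transferSylow P
    (IsCyclic.normalizer_le_centralizer hmin hPc)) ?_ ?_
  · rw [← MonoidHom.range_eq_top]
    refine Subgroup.eq_top_of_card_eq _ ?_
    rw [← Subgroup.index_ker]
    exact hc'.symm.index_eq_card
  · rw [P.card_eq_multiplicity]
    exact dvd_pow_self 2 ((Nat.prime_two.factorization_pos_of_dvd Nat.card_pos.ne' hG).ne')

/-- The structure of the exceptional regular groups without a subgroup of index two. -/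
theorem exceptional_structure (hsol : Group.IsSolvable G) (hp2 : p ≠ 2)
    (hno : ¬ ∃ N : Subgroup G, N.Normal ∧ N.index = 2) :
    (Nat.card V = 25 ∧ Nonempty (G ≃* Matrix.SpecialLinearGroup (Fin 2) (ZMod 3))) ∨
      (Nat.card V = 121 ∧
        Nonempty (G ≃* Matrix.SpecialLinearGroup (Fin 2) (ZMod 3) × Multiplicative (ZMod 5))) := by
  classical
  rcases regular_dichotomy hρ htr hreg hsol with h | ⟨-, hV, hng, hp⟩
  · exact absurd (index_two_of_good hρ htr hreg hp2 h) hno
  obtain ⟨⟨Q, hQn, hQ, hFQ, hab, hQcard⟩, hF, h2Z, hZ, -, hidx1, h3⟩ :=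
    dim_two hsol hρ htr hp2 hV hng
  have hidx3 : (Cfsg.fittingSubgroup G).index = 3 :=
    ((Nat.dvd_prime Nat.prime_three).mp (h3.resolve_left hno)).resolve_left hidx1
  have hG := card_eq_of_regular htr hreg
  have hGZ : Nat.card G = 12 * Nat.card (Subgroup.center G) := by
    rw [← (Cfsg.fittingSubgroup G).card_mul_index, hF, hidx3]; ring
  have : Fact (Nat.Prime 2) := ⟨Nat.prime_two⟩
  have : Fact (Nat.Prime 3) := ⟨Nat.prime_three⟩
  -- the centre is `2` or `10`
  have hcases : (p = 5 ∧ Nat.card (Subgroup.center G) = 2) ∨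
      (p = 11 ∧ Nat.card (Subgroup.center G) = 10) := by
    rw [hV, hGZ] at hG
    rcases hp with rfl | rfl | rfl | rfl <;> norm_num at hG hZ ⊢
    · omega
    · have h4 : Nat.card (Subgroup.center G) = 4 := by omega
      rw [h4] at hZ; norm_num at hZ
    · omega
    · have := Nat.le_of_dvd (by norm_num) hZ; omega
  -- the order of `Q`
  set ZQ : Subgroup G := Q ⊓ Subgroup.center G
  have hZQ : Nat.card ZQ = 2 := by
    obtain ⟨k, hk⟩ := IsPGroup.iff_card.mp (hQ.to_le (show ZQ ≤ Q from inf_le_left))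
    have hdvd : Nat.card ZQ ∣ Nat.card (Subgroup.center G) := Subgroup.card_dvd_of_le inf_le_right
    have hk1 : k ≠ 0 := by
      rintro rfl
      obtain ⟨a, ha, b, hb, hne⟩ := hab
      have hcard4 : Nat.card Q = 2 ^ 2 := by rw [hQcard, hk]; norm_num
      exact hne (commutatorElement_eq_one_iff_mul_comm.mpr
        (congrArg Subtype.val (IsPGroup.commutative_of_card_eq_prime_sq hcard4 ⟨a, ha⟩ ⟨b, hb⟩)))
    have hk2 : k ≤ 1 := by
      by_contra hcon
      have h4 : 2 ^ 2 ∣ Nat.card (Subgroup.center G) :=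
        ((Nat.pow_dvd_pow 2 (by omega)).trans hk.symm.dvd).trans hdvd
      rcases hcases with ⟨-, h⟩ | ⟨-, h⟩ <;> rw [h] at h4 <;> norm_num at h4
    rw [hk, show k = 1 by omega, pow_one]
  have hQ8 : Nat.card Q = 8 := by rw [hQcard, hZQ]
  -- an element of order three
  obtain ⟨x, hxo⟩ := exists_prime_orderOf_dvd_card' 3 (G := G) (by rw [hGZ]; exact ⟨4 * _, by ring⟩)
  have hxc : x ∉ Subgroup.centralizer (Q : Set G) := by
    intro hx
    have hxF : x ∈ Cfsg.fittingSubgroup G := by
      have := hsol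
      refine Cores.centralizer_fittingSubgroup_le ?_
      have hle : Cfsg.fittingSubgroup G ≤ Subgroup.centralizer ({x} : Set G) := by
        rw [hFQ, sup_le_iff]
        exact ⟨fun u hu => Subgroup.mem_centralizer_singleton_iff.mpr
            (Subgroup.mem_centralizer_iff.mp hx u hu),
          fun u hu => Subgroup.mem_centralizer_singleton_iff.mpr
            (Subgroup.mem_center_iff.mp hu x).symm⟩
      exact Subgroup.mem_centralizer_iff.mpr fun u hu =>
        Subgroup.mem_centralizer_singleton_iff.mp (hle hu)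
    have h : 3 ∣ Nat.card (Cfsg.fittingSubgroup G) := hxo ▸ Subgroup.orderOf_dvd_natCard _ hxF
    rw [hF] at h
    rcases hcases with ⟨-, hz⟩ | ⟨-, hz⟩ <;> rw [hz] at h <;> norm_num at h
  -- the subgroup of order 24
  set M := Subgroup.zpowers x ⊔ Q
  have hM : Nat.card M = 24 := by
    rw [Coprime.card_sup_of_coprime (by rw [Subgroup.normalizer_eq_top_iff.mpr hQn]; exact le_top)
      (by rw [Nat.card_zpowers, hxo, hQ8]; norm_num), Nat.card_zpowers, hxo, hQ8]
  have hxM : x ∈ M := Subgroup.mem_sup_left (Subgroup.mem_zpowers x)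
  obtain ⟨e⟩ : Nonempty (M ≃* Matrix.SpecialLinearGroup (Fin 2) (ZMod 3)) := by
    refine nonempty_equiv_sl_two_three hM (hQn.subgroupOf M)
      (hQ.of_equiv (Subgroup.subgroupOfEquivOfLe (le_sup_right : Q ≤ M)).symm) ?_
      (g := ⟨x, hxM⟩) (by rw [Subgroup.orderOf_mk, hxo]) ?_
    · intro a _ b _ ha hb
      exact Subtype.ext (involution_unique hreg hρ _ _ (by rw [Subgroup.orderOf_coe, ha])
        (by rw [Subgroup.orderOf_coe, hb]))
    · intro h
      exact hxc (Subgroup.mem_centralizer_iff.mpr fun u hu =>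
        congrArg Subtype.val (Subgroup.mem_centralizer_iff.mp h ⟨u, Subgroup.mem_sup_right hu⟩
          (show (⟨u, Subgroup.mem_sup_right hu⟩ : M) ∈ Q.subgroupOf M from hu)))
  rcases hcases with ⟨rfl, hz⟩ | ⟨rfl, hz⟩
  · left
    refine ⟨by rw [hV]; norm_num, ⟨(Subgroup.topEquiv.symm.trans (MulEquiv.subgroupCongr ?_)).trans e⟩⟩
    exact (Subgroup.eq_top_of_card_eq M (by rw [hM, hGZ, hz])).symm
  · right
    refine ⟨by rw [hV]; norm_num, ?_⟩
    have : Fact (Nat.Prime 5) := ⟨by norm_num⟩
    obtain ⟨w, hwo⟩ := exists_prime_orderOf_dvd_card' 5 (G := Subgroup.center G) (by rw [hz]; norm_num)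
    have hwo' : orderOf (w : G) = 5 := by rw [Subgroup.orderOf_coe, hwo]
    have hcomm : ∀ (a : M) (b : Subgroup.zpowers (w : G)), Commute (M.subtype a) ((Subgroup.zpowers (w : G)).subtype b) :=
      fun a b => Subgroup.mem_center_iff.mp (Subgroup.zpowers_le.mpr w.2 b.2) a
    let f := MonoidHom.noncommCoprod M.subtype (Subgroup.zpowers (w : G)).subtype hcomm
    have hinj : Function.Injective f := by
      refine (injective_iff_map_eq_one f).mpr fun ⟨a, b⟩ h => ?_
      have h' : (a : G) * b = 1 := h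
      have ha : (a : G) ∈ Subgroup.zpowers (w : G) := by
        rw [mul_eq_one_iff_eq_inv] at h'
        exact h' ▸ inv_mem b.2
      have hinf : M ⊓ Subgroup.zpowers (w : G) = ⊥ := Subgroup.inf_eq_bot_of_coprime (by
        rw [hM, Nat.card_zpowers, hwo']; norm_num)
      have ha1 : (a : G) = 1 := Subgroup.mem_bot.mp (hinf ▸ (⟨a.2, ha⟩ : (a : G) ∈ M ⊓ _))
      rw [ha1, one_mul] at h'
      exact Prod.ext (Subtype.ext ha1) (Subtype.ext h')
    have hbij : Function.Bijective f := hinj.bijective_of_nat_card_le (by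
      rw [Nat.card_prod, hM, Nat.card_zpowers, hwo', hGZ, hz])
    let e5 : Subgroup.zpowers (w : G) ≃* Multiplicative (ZMod 5) :=
      mulEquivOfPrimeCardEq (p := 5) (by rw [Nat.card_zpowers, hwo']) (by simp)
    exact ⟨(MulEquiv.ofBijective f hbij).symm.trans (e.prodCongr e5)⟩

end Cfsg.Agent.Recog.TransLin
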