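import Mathlib.LinearAlgebra.SymplecticGroup
import Mathlib.LinearAlgebra.Matrix.Notation
import Mathlib.LinearAlgebra.Matrix.Determinant.Basic
import Mathlib.Tactic.LinearCombination
import Mathlib.Tactic.FinCases
import Mathlib.Tactic.Ring

/-!
# The stabiliser of a vector in the four-dimensional symplectic group
-/

set_option autoImplicit false

namespace Cfsg.Agent.Recog.SpFour

open Matrix

variable {R : Type*} [CommRing R]

/-- The element `(v, κ, A)` of the stabiliser of the first basis vector. -/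
def mat (v : Fin 2 → R) (κ : R) (A : Matrix (Fin 2) (Fin 2) R) :
    Matrix (Fin 2 ⊕ Fin 2) (Fin 2 ⊕ Fin 2) R :=
  fromBlocks !![1, v 0 * A 1 0 - v 1 * A 0 0; 0, A 0 0]
    !![κ, v 0 * A 1 1 - v 1 * A 0 1; v 0, A 0 1]
    !![0, 0; 0, A 1 0] !![1, 0; v 1, A 1 1]

theorem mat_mem (v : Fin 2 → R) (κ : R) {A : Matrix (Fin 2) (Fin 2) R} (hA : A.det = 1) :
    mat v κ A ∈ symplecticGroup (Fin 2) R := by
  rw [det_fin_two] at hA
  rw [mat, SymplecticGroup.fromBlocks_mem_iff]
  refine ⟨?_, ?_, ?_⟩ <;> ext i j <;> fin_cases i <;> fin_cases j <;>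
    simp [Matrix.mul_apply, Fin.sum_univ_two] <;>
    first
      | ring1
      | linear_combination hA

theorem mat_mul (v w : Fin 2 → R) (κ μ : R) {A B : Matrix (Fin 2) (Fin 2) R} (hA : A.det = 1) :
    mat v κ A * mat w μ B =
      mat (v + A *ᵥ w) (κ + μ + (v 0 * (A *ᵥ w) 1 - v 1 * (A *ᵥ w) 0)) (A * B) := by
  rw [det_fin_two] at hA
  rw [mat, mat, mat, fromBlocks_multiply]
  refine congr (congr (congr (congrArg fromBlocks ?_) ?_) ?_) ?_ <;>
    ext i j <;> fin_cases i <;> fin_cases j <;>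
    simp [Matrix.mul_apply, Matrix.mulVec, dotProduct, Fin.sum_univ_two] <;>
    first
      | ring1
      | linear_combination (-(w 0 * B 1 0 - w 1 * B 0 0)) * hA
      | linear_combination (-(w 0 * B 1 1 - w 1 * B 0 1)) * hA
      | linear_combination (w 0 * B 1 0 - w 1 * B 0 0) * hA
      | linear_combination (w 0 * B 1 1 - w 1 * B 0 1) * hA
      | linear_combination hA

theorem mat_one : mat (0 : Fin 2 → R) 0 1 = 1 := by
  rw [mat, ← fromBlocks_one]
  refine congr (congr (congr (congrArg fromBlocks ?_) ?_) ?_) ?_ <;>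
    ext i j <;> fin_cases i <;> fin_cases j <;> simp

theorem mat_inj {v w : Fin 2 → R} {κ μ : R} {A B : Matrix (Fin 2) (Fin 2) R}
    (h : mat v κ A = mat w μ B) : v = w ∧ κ = μ ∧ A = B := by
  rw [mat, mat, fromBlocks_inj] at h
  obtain ⟨h1, h2, h3, h4⟩ := h
  have e1 := congrFun (congrFun h1 1) 1
  have e2 := congrFun (congrFun h2 0) 0
  have e3 := congrFun (congrFun h2 1) 0
  have e4 := congrFun (congrFun h2 1) 1
  have e5 := congrFun (congrFun h3 1) 1
  have e6 := congrFun (congrFun h4 1) 0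
  have e7 := congrFun (congrFun h4 1) 1
  simp at e1 e2 e3 e4 e5 e6 e7
  refine ⟨?_, e2, ?_⟩
  · ext i; fin_cases i <;> simp [e3, e6]
  · ext i j; fin_cases i <;> fin_cases j <;> simp [e1, e4, e5, e7]

/-- The transvection at the first basis vector. -/
def transv (R : Type*) [CommRing R] : Matrix (Fin 2 ⊕ Fin 2) (Fin 2 ⊕ Fin 2) R :=
  fromBlocks 1 !![1, 0; 0, 0] 0 1

theorem mat_eq_transv : mat (0 : Fin 2 → R) 1 1 = transv R := by
  rw [mat, transv]
  refine congr (congr (congr (congrArg fromBlocks ?_) ?_) ?_) ?_ <;>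
    ext i j <;> fin_cases i <;> fin_cases j <;> simp

/-- A symplectic matrix commuting with the transvection is, up to a sign, some `mat v κ A`. -/
theorem exists_mat_of_comm {g : Matrix (Fin 2 ⊕ Fin 2) (Fin 2 ⊕ Fin 2) R}
    (hg : g ∈ symplecticGroup (Fin 2) R) (hc : g * transv R = transv R * g) :
    ∃ (a : R) (v : Fin 2 → R) (κ : R) (A : Matrix (Fin 2) (Fin 2) R),
      a * a = 1 ∧ A.det = 1 ∧ g = a • mat v κ A := by
  obtain ⟨A, B, C, D, rfl⟩ : ∃ A B C D, g = fromBlocks A B C D :=
    ⟨_, _, _, _, (fromBlocks_toBlocks g).symm⟩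
  rw [transv, fromBlocks_multiply, fromBlocks_multiply, fromBlocks_inj] at hc
  simp only [Matrix.one_mul, Matrix.mul_one, Matrix.mul_zero, Matrix.zero_mul, add_zero,
    zero_add] at hc
  obtain ⟨h1, h2, h3, h4⟩ := hc
  rw [SymplecticGroup.fromBlocks_mem_iff] at hg
  obtain ⟨g1, g2, g3⟩ := hg
  have c00 := congrFun (congrFun h1 0) 0
  have c01 := congrFun (congrFun h1 0) 1
  have c10 := congrFun (congrFun h4 1) 0
  have e00 := congrFun (congrFun h2 0) 0
  have e10 := congrFun (congrFun h2 1) 0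
  have e01 := congrFun (congrFun h2 0) 1
  simp [Matrix.mul_apply, Matrix.vecMul, dotProduct, Fin.sum_univ_two] at c00 c01 c10 e00 e10 e01
  have f00 := congrFun (congrFun g3 0) 0
  have f10 := congrFun (congrFun g3 1) 0
  have f11 := congrFun (congrFun g3 1) 1
  have k01 := congrFun (congrFun g2 0) 1
  simp [Matrix.mul_apply, Fin.sum_univ_two, c00, c01, c10, e10, e01] at f00 f10 f11 k01
  have hD : D 0 0 = A 0 0 := by linear_combination -e00
  rw [hD] at f00 f10 k01
  refine ⟨A 0 0, A 0 0 • ![B 1 0, D 1 0], A 0 0 * B 0 0,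
    A 0 0 • !![A 1 1, B 1 1; C 1 1, D 1 1], f00, ?_, ?_⟩
  · rw [det_fin_two]
    simp
    linear_combination (A 0 0 * A 0 0) * f11 + f00
  · rw [mat, fromBlocks_smul, fromBlocks_inj]
    refine ⟨?_, ?_, ?_, ?_⟩ <;> ext i j <;> fin_cases i <;> fin_cases j <;>
      simp [c00, c01, c10, e10, e01, hD] <;>
      first
        | linear_combination (-A 0 0) * f00
        | linear_combination (-B 0 0) * f00
        | linear_combination (-B 1 0) * f00
        | linear_combination (-B 1 1) * f00
        | linear_combination (-C 1 1) * f00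
        | linear_combination (-D 1 0) * f00
        | linear_combination (-D 1 1) * f00
        | linear_combination (-A 1 1) * f00
        | linear_combination A 0 0 * f10 - A 0 1 * f00 -
            A 0 0 * (B 1 0 * C 1 1 - D 1 0 * A 1 1) * f00
        | linear_combination (-A 0 0) * k01 - B 0 1 * f00 -
            A 0 0 * (B 1 0 * D 1 1 - D 1 0 * B 1 1) * f00

end Cfsg.Agent.Recog.SpFour
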