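import Mathlib

/-!
# The groups of order 162 isomorphic to the wreath product of a cyclic group of order three with Sym(3)
-/

set_option autoImplicit false

namespace Cfsg.Agent.Recog.WreathThree

set_option linter.style.haveILetI false

variable {M : Type*} [Group M]

/-- Normal form. -/
def form (a u t : M) (x : Fin 3 × Fin 3 × Fin 3 × Fin 3 × Fin 2) : M :=
  a ^ (x.1 : ℕ) * (u * a * u⁻¹) ^ (x.2.1 : ℕ) * (u * (u * a * u⁻¹) * u⁻¹) ^ (x.2.2.1 : ℕ) *
    u ^ (x.2.2.2.1 : ℕ) * t ^ (x.2.2.2.2 : ℕ)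

/-- The relations. -/
structure Rel (a u t : M) : Prop where
  ha : a ^ 3 = 1
  hu : u ^ 3 = 1
  ht : t ^ 2 = 1
  hta : t * a = a * t
  htu : t * u = u ^ 2 * t
  hab : Commute a (u * a * u⁻¹)

/-- Elements satisfying the relations generate at most 162 elements, all in normal form. -/
theorem closure_subset [Finite M] {a u t : M} (R : Rel a u t) :
    (Subgroup.closure ({a, u, t} : Set M) : Set M) ⊆ Set.range (form a u t) := by
  obtain ⟨ha, hu, ht, hta, htu, hab⟩ := R
  set b := u * a * u⁻¹ with hbdef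
  set c := u * b * u⁻¹ with hcdef
  have hb : b ^ 3 = 1 := by rw [hbdef, conj_pow, ha, mul_one, mul_inv_cancel]
  have hc : c ^ 3 = 1 := by rw [hcdef, conj_pow, hb, mul_one, mul_inv_cancel]
  have hu2 : u⁻¹ = u * u := inv_eq_of_mul_eq_one_right (by rw [← mul_assoc]; simpa [pow_succ] using hu)
  have huc : u * c * u⁻¹ = a := by
    calc u * c * u⁻¹ = u ^ 3 * a * (u ^ 3)⁻¹ := by rw [hcdef, hbdef]; simp [pow_succ, mul_assoc]
      _ = a := by rw [hu]; group
  have hbc : Commute b c := by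
    have h := hab.map (MulAut.conj u).toMonoidHom
    simpa [hbdef, hcdef] using h
  have hac : Commute a c := by
    have h := hbc.map (MulAut.conj u).toMonoidHom
    simp only [MulEquiv.coe_toMonoidHom, MulAut.conj_apply, huc, ← hcdef] at h
    exact h.symm
  have ub : u * a = b * u := by rw [hbdef, inv_mul_cancel_right]
  have uc : u * b = c * u := by rw [hcdef, inv_mul_cancel_right]
  have ua : u * c = a * u := by rw [← huc, inv_mul_cancel_right]
  have tu2 : t * (u * u) = u * t := by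
    rw [← mul_assoc, htu, mul_assoc, htu, ← mul_assoc, ← pow_add, show 2 + 2 = 3 + 1 from rfl,
      pow_add, hu, one_mul, pow_one]
  have tb : t * b = c * t := by
    have e1 : c = u * u * a * u := by
      rw [hcdef, hbdef, hu2]
      calc u * (u * a * (u * u)) * (u * u) = u * u * a * u * (u ^ 3) := by simp [pow_succ, mul_assoc]
        _ = _ := by rw [hu, mul_one]
    rw [hbdef, hu2, e1]
    calc t * (u * a * (u * u)) = (t * u) * a * (u * u) := by simp [mul_assoc]
      _ = u ^ 2 * (t * a) * (u * u) := by rw [htu]; simp [mul_assoc]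
      _ = u ^ 2 * a * (t * (u * u)) := by rw [hta]; simp [mul_assoc]
      _ = u * u * a * u * t := by rw [tu2]; simp [pow_succ, mul_assoc]
  have tc : t * c = b * t := by
    have h1 : t * (t * b) * t = t * (c * t) * t := by rw [tb]
    rw [sq] at ht
    simp only [mul_assoc, ht, mul_one] at h1
    rw [← mul_assoc, ht, one_mul] at h1
    exact h1.symm
  have push : ∀ {g x y : M}, g * x = y * g → ∀ n : ℕ, g * x ^ n = y ^ n * g := fun h n =>
    (SemiconjBy.pow_right h n).eq
  have hred : ∀ i j k l m : ℕ, a ^ i * b ^ j * c ^ k * u ^ l * t ^ m ∈ Set.range (form a u t) := by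
    intro i j k l m
    refine ⟨(⟨i % 3, Nat.mod_lt _ (by norm_num)⟩, ⟨j % 3, Nat.mod_lt _ (by norm_num)⟩,
      ⟨k % 3, Nat.mod_lt _ (by norm_num)⟩, ⟨l % 3, Nat.mod_lt _ (by norm_num)⟩,
      ⟨m % 2, Nat.mod_lt _ (by norm_num)⟩), ?_⟩
    show a ^ (i % 3) * b ^ (j % 3) * c ^ (k % 3) * u ^ (l % 3) * t ^ (m % 2) = _
    rw [← pow_eq_pow_mod _ ha, ← pow_eq_pow_mod _ hb, ← pow_eq_pow_mod _ hc, ← pow_eq_pow_mod _ hu,
      ← pow_eq_pow_mod _ ht]
  intro x hx
  rw [SetLike.mem_coe, ← Subgroup.mem_toSubmonoid, Subgroup.closure_toSubmonoid_of_finite] at hx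
  induction hx using Submonoid.closure_induction_left with
  | one => simpa using hred 0 0 0 0 0
  | mul_left y hy z hz ih =>
    obtain ⟨⟨i, j, k, l, m⟩, rfl⟩ := ih
    show y * (a ^ (i : ℕ) * b ^ (j : ℕ) * c ^ (k : ℕ) * u ^ (l : ℕ) * t ^ (m : ℕ)) ∈ _
    rcases hy with rfl | rfl | rfl
    · have e : y * (y ^ (i : ℕ) * b ^ (j : ℕ) * c ^ (k : ℕ) * u ^ (l : ℕ) * t ^ (m : ℕ)) =
          y ^ ((i : ℕ) + 1) * b ^ (j : ℕ) * c ^ (k : ℕ) * u ^ (l : ℕ) * t ^ (m : ℕ) := by
        simp only [← mul_assoc, ← pow_succ']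
      rw [e]
      exact hred _ _ _ _ _
    · have e : y * (a ^ (i : ℕ) * b ^ (j : ℕ) * c ^ (k : ℕ) * y ^ (l : ℕ) * t ^ (m : ℕ)) =
          a ^ (k : ℕ) * b ^ (i : ℕ) * c ^ (j : ℕ) * y ^ ((l : ℕ) + 1) * t ^ (m : ℕ) := by
        rw [← mul_assoc, ← mul_assoc, ← mul_assoc, ← mul_assoc, push ub, mul_assoc _ y, push uc,
          ← mul_assoc, mul_assoc _ y, push ua, ← mul_assoc, mul_assoc _ y, ← pow_succ']
        congr 2
        rw [mul_assoc (b ^ (i : ℕ)), ((hac.pow_pow (k : ℕ) (j : ℕ))).symm.eq, ← mul_assoc,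
          (hab.pow_pow (k : ℕ) (i : ℕ)).symm.eq]
      rw [e]
      exact hred _ _ _ _ _
    · have e : y * (a ^ (i : ℕ) * b ^ (j : ℕ) * c ^ (k : ℕ) * u ^ (l : ℕ) * y ^ (m : ℕ)) =
          a ^ (i : ℕ) * b ^ (k : ℕ) * c ^ (j : ℕ) * u ^ (2 * (l : ℕ)) * y ^ ((m : ℕ) + 1) := by
        rw [← mul_assoc, ← mul_assoc, ← mul_assoc, ← mul_assoc, push hta, mul_assoc _ y, push tb,
          ← mul_assoc, mul_assoc _ y, push tc, ← mul_assoc, mul_assoc _ y, push htu, ← pow_mul,
          ← mul_assoc, mul_assoc _ y, ← pow_succ']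
        congr 2
        rw [mul_assoc (a ^ (i : ℕ)), ((hbc.pow_pow (k : ℕ) (j : ℕ))).symm.eq, ← mul_assoc]
      rw [e]
      exact hred _ _ _ _ _

theorem card_closure_le [Finite M] {a u t : M} (R : Rel a u t) :
    Nat.card (Subgroup.closure ({a, u, t} : Set M)) ≤ 162 := by
  rw [← SetLike.coe_sort_coe, Nat.card_coe_set_eq]
  refine (Set.ncard_le_ncard (closure_subset R) (Set.toFinite _)).trans ?_
  rw [← Nat.card_coe_set_eq]
  exact (Finite.card_range_le _).trans (by simp)

/-- The commuting permutation. -/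
abbrev sigma : Equiv.Perm (Fin 9) :=
  Equiv.swap (0 : Fin 9) 1 * Equiv.swap 1 2 * Equiv.swap 3 4 * Equiv.swap 4 5 * Equiv.swap 6 7 * Equiv.swap 7 8

/-- A cycle. -/
def pA : Equiv.Perm (Fin 9) := ⟨![1, 2, 0, 3, 4, 5, 6, 7, 8], ![2, 0, 1, 3, 4, 5, 6, 7, 8], by decide, by decide⟩
/-- The shift of blocks. -/
def pU : Equiv.Perm (Fin 9) := ⟨![3, 4, 5, 6, 7, 8, 0, 1, 2], ![6, 7, 8, 0, 1, 2, 3, 4, 5], by decide, by decide⟩
/-- The exchange of two blocks. -/
def pT : Equiv.Perm (Fin 9) := ⟨![0, 1, 2, 6, 7, 8, 3, 4, 5], ![0, 1, 2, 6, 7, 8, 3, 4, 5], by decide, by decide⟩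

theorem perm_rel : Rel pA pU pT where
  ha := Equiv.ext (by decide +kernel)
  hu := Equiv.ext (by decide +kernel)
  ht := Equiv.ext (by decide +kernel)
  hta := Equiv.ext (by decide +kernel)
  htu := Equiv.ext (by decide +kernel)
  hab := Equiv.ext (by decide +kernel)

theorem comm_sigma : pA * sigma = sigma * pA ∧ pU * sigma = sigma * pU ∧ pT * sigma = sigma * pT :=
  ⟨Equiv.ext (by decide +kernel), Equiv.ext (by decide +kernel), Equiv.ext (by decide +kernel)⟩

/-- All tuples. -/
def tuples : List (Fin 3 × Fin 3 × Fin 3 × Fin 3 × Fin 2) :=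
  (List.finRange 3).flatMap fun i => (List.finRange 3).flatMap fun j => (List.finRange 3).flatMap fun k =>
    (List.finRange 3).flatMap fun l => (List.finRange 2).map fun m => (i, j, k, l, m)

theorem mem_tuples : ∀ x, x ∈ tuples := by decide +kernel

theorem perm_nodup : ((tuples.map (form pA pU pT)).map
    fun g : Equiv.Perm (Fin 9) => (List.finRange 9).map fun i => (g i).val).Nodup := by decide +kernel

theorem card_centralizer_sigma :
    Nat.card (Subgroup.centralizer ({sigma} : Set (Equiv.Perm (Fin 9)))) = 162 := by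
  have ht : sigma.cycleType = {3, 3, 3} := by decide +kernel
  rw [Equiv.Perm.nat_card_centralizer, ht]
  decide

/-- The recognition. -/
theorem nonempty_equiv {G : Type*} [Group G] [Finite G] (hG : Nat.card G = 162) {a u t : G}
    (R : Rel a u t) (hgen : Subgroup.closure ({a, u, t} : Set G) = ⊤) :
    Nonempty (G ≃* Subgroup.centralizer ({sigma} : Set (Equiv.Perm (Fin 9)))) := by
  classical
  set C := Subgroup.centralizer ({sigma} : Set (Equiv.Perm (Fin 9)))
  let A : C := ⟨pA, Subgroup.mem_centralizer_singleton_iff.mpr comm_sigma.1⟩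
  let U : C := ⟨pU, Subgroup.mem_centralizer_singleton_iff.mpr comm_sigma.2.1⟩
  let T : C := ⟨pT, Subgroup.mem_centralizer_singleton_iff.mpr comm_sigma.2.2⟩
  have RC : Rel A U T := ⟨Subtype.ext perm_rel.ha, Subtype.ext perm_rel.hu, Subtype.ext perm_rel.ht,
    Subtype.ext perm_rel.hta, Subtype.ext perm_rel.htu, Subtype.ext perm_rel.hab⟩
  have hform : ∀ x, ((form A U T x : C) : Equiv.Perm (Fin 9)) = form pA pU pT x := fun x => by
    simp [form, A, U, T]
  have hinj : Function.Injective (form A U T) := by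
    intro x y h
    exact List.inj_on_of_nodup_map (List.Nodup.of_map _ perm_nodup) (mem_tuples x) (mem_tuples y)
      (by rw [← hform, ← hform, h])
  have hC : Subgroup.closure ({A, U, T} : Set C) = ⊤ := by
    refine eq_top_iff.mpr fun g _ => ?_
    obtain ⟨⟨i, j, k, l, m⟩, rfl⟩ := (hinj.bijective_of_nat_card_le (by
      rw [card_centralizer_sigma]; simp)).2 g
    set K := Subgroup.closure ({A, U, T} : Set C)
    have hA : A ∈ K := Subgroup.subset_closure (by simp)
    have hU : U ∈ K := Subgroup.subset_closure (by simp)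
    have hT : T ∈ K := Subgroup.subset_closure (by simp)
    have hB := mul_mem (mul_mem hU hA) (inv_mem hU)
    exact mul_mem (mul_mem (mul_mem (mul_mem (pow_mem hA _) (pow_mem hB _))
      (pow_mem (mul_mem (mul_mem hU hB) (inv_mem hU)) _)) (pow_mem hU _)) (pow_mem hT _)
  let P : Subgroup (G × C) := Subgroup.closure {(a, A), (u, U), (t, T)}
  have hP : Nat.card P ≤ 162 := card_closure_le ⟨Prod.ext R.ha RC.ha, Prod.ext R.hu RC.hu,
    Prod.ext R.ht RC.ht, Prod.ext R.hta RC.hta, Prod.ext R.htu RC.htu, Prod.ext R.hab RC.hab⟩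
  let f : P →* G := (MonoidHom.fst G C).comp P.subtype
  let g : P →* C := (MonoidHom.snd G C).comp P.subtype
  have hf : Function.Surjective f := MonoidHom.range_eq_top.mp <| by
    rw [MonoidHom.range_comp, Subgroup.range_subtype, MonoidHom.map_closure, Set.image_insert_eq,
      Set.image_insert_eq, Set.image_singleton]
    exact hgen
  have hg : Function.Surjective g := MonoidHom.range_eq_top.mp <| by
    rw [MonoidHom.range_comp, Subgroup.range_subtype, MonoidHom.map_closure, Set.image_insert_eq,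
      Set.image_insert_eq, Set.image_singleton]
    exact hC
  exact ⟨(MulEquiv.ofBijective f (hf.bijective_of_nat_card_le (hP.trans hG.ge))).symm.trans
    (MulEquiv.ofBijective g (hg.bijective_of_nat_card_le (hP.trans card_centralizer_sigma.ge)))⟩

end Cfsg.Agent.Recog.WreathThree
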